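import Cfsg.Agent.H19.PSpFour.SquareAlg

/-!
Products of two elements of `GL₂(F)` each conjugate to the elliptic companion matrix or to its inverse.
-/

set_option autoImplicit false

namespace Cfsg.Agent.H19.GTwo

open Matrix
open Cfsg.Agent.H19.PSpFour (comp2 NoRoot exists_conj_comp goodBlock_factor GoodBlock)

variable {F : Type*} [Field F] {t d : F}

/-- The companion matrix as a unit. -/
def cG (h : NoRoot t d) : GL (Fin 2) F :=
  Matrix.GeneralLinearGroup.mkOfDetNeZero (comp2 t d) (by simpa using h.d_ne_zero)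

@[simp] theorem coe_cG (h : NoRoot t d) :
    ((cG h : GL (Fin 2) F) : Matrix (Fin 2) (Fin 2) F) = comp2 t d := rfl

/-- Conjugate to the companion matrix or to its inverse. -/
def InClass (h : NoRoot t d) (B : GL (Fin 2) F) : Prop := IsConj (cG h) B ∨ IsConj (cG h)⁻¹ B

theorem InClass.inv {h : NoRoot t d} {B : GL (Fin 2) F} (hB : InClass h B) : InClass h B⁻¹ := by
  rcases hB with hB | hB <;> obtain ⟨c, rfl⟩ := isConj_iff.mp hB
  · exact Or.inr (isConj_iff.mpr ⟨c, by group⟩)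
  · exact Or.inl (isConj_iff.mpr ⟨c, by group⟩)

theorem InClass.conj {h : NoRoot t d} {B : GL (Fin 2) F} (hB : InClass h B) (P : GL (Fin 2) F) :
    InClass h (P * B * P⁻¹) :=
  hB.imp (fun e => e.trans (isConj_iff.mpr ⟨P, rfl⟩)) (fun e => e.trans (isConj_iff.mpr ⟨P, rfl⟩))

/-- The block is a product of two elements of the classes. -/
def Fac (h : NoRoot t d) (M : GL (Fin 2) F) : Prop :=
  ∃ B C : GL (Fin 2) F, InClass h B ∧ InClass h C ∧ M = B * C

theorem isConj_of_trace_det (h : NoRoot t d) (X : GL (Fin 2) F)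
    (htr : (X : Matrix (Fin 2) (Fin 2) F).trace = t) (hdet : (X : Matrix (Fin 2) (Fin 2) F).det = d) :
    IsConj (cG h) X := by
  have hns : ∀ r : F, (X : Matrix (Fin 2) (Fin 2) F) ≠ r • 1 := by
    intro r e
    rw [e] at htr hdet
    simp [trace_fin_two, det_fin_two] at htr hdet
    exact h r (by rw [← htr, ← hdet]; ring)
  obtain ⟨P, hP⟩ := exists_conj_comp _ hns
  rw [htr, hdet] at hP
  exact isConj_iff.mpr ⟨P, Units.ext (by simpa using hP.symm)⟩

theorem isConj_inv_of_trace_det (h : NoRoot t d) (X : GL (Fin 2) F)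
    (htr : (X : Matrix (Fin 2) (Fin 2) F).trace = t / d) (hdet : (X : Matrix (Fin 2) (Fin 2) F).det = d⁻¹) :
    IsConj (cG h)⁻¹ X := by
  have hd := h.d_ne_zero
  have hc : IsConj (cG h) X⁻¹ := by
    refine isConj_of_trace_det h _ ?_ ?_
    all_goals rw [Matrix.coe_units_inv]
    · rw [Matrix.inv_def, hdet, Matrix.trace_smul, adjugate_fin_two, trace_fin_two]
      rw [trace_fin_two] at htr
      simp [htr]
      linear_combination (norm := (field_simp; ring)) d * htr
    · rw [Matrix.det_nonsing_inv, hdet, Ring.inverse_eq_inv', inv_inv]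
  obtain ⟨c, hc⟩ := isConj_iff.mp hc
  exact isConj_iff.mpr ⟨c, by rw [← inv_inv X, ← hc]; group⟩

theorem noRoot_inv (h : NoRoot t d) : NoRoot (t / d) d⁻¹ := by
  intro r hr
  have hd := h.d_ne_zero
  refine h (r * d) ?_
  field_simp at hr
  linear_combination d * hr

variable [Fintype F]

/-- The good blocks of determinant `d²`. -/
theorem fac_good (h : NoRoot t d) (ht : t ≠ 0) (M : GL (Fin 2) F)
    (hM : GoodBlock d (M : Matrix (Fin 2) (Fin 2) F)) : Fac h M := by
  obtain ⟨P, Q, e⟩ := goodBlock_factor h ht hM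
  exact ⟨P * cG h * P⁻¹, Q * cG h * Q⁻¹, Or.inl (isConj_iff.mpr ⟨P, rfl⟩),
    Or.inl (isConj_iff.mpr ⟨Q, rfl⟩), Units.ext (by simpa using e)⟩

/-- The good blocks of determinant `d⁻²`. -/
theorem fac_good_inv (h : NoRoot t d) (ht : t ≠ 0) (M : GL (Fin 2) F)
    (hM : GoodBlock d⁻¹ (M : Matrix (Fin 2) (Fin 2) F)) : Fac h M := by
  have hd := h.d_ne_zero
  obtain ⟨P, Q, e⟩ := goodBlock_factor (noRoot_inv h) (div_ne_zero ht hd) hM
  refine ⟨P * cG (noRoot_inv h) * P⁻¹, Q * cG (noRoot_inv h) * Q⁻¹, ?_, ?_,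
    Units.ext (by simpa using e)⟩
  all_goals
    refine InClass.conj (Or.inr (isConj_inv_of_trace_det h _ ?_ ?_)) _
    all_goals simp

/-- Characteristic not two and `d = -1`: every block of determinant one. -/
theorem fac_det_one (h : NoRoot t d) (ht : t ≠ 0) (hd : d = -1) (h2 : (2 : F) ≠ 0) (M : GL (Fin 2) F)
    (hM : (M : Matrix (Fin 2) (Fin 2) F).det = 1) : Fac h M := by
  by_cases hs : ∃ r : F, (M : Matrix (Fin 2) (Fin 2) F) = r • 1
  · obtain ⟨r, hr⟩ := hs
    rw [hr, det_smul, det_one, Fintype.card_fin, mul_one] at hM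
    rcases sq_eq_one_iff.mp hM with rfl | rfl
    · exact ⟨cG h, (cG h)⁻¹, Or.inl (IsConj.refl _), Or.inr (IsConj.refl _),
        Units.ext (by simpa using hr)⟩
    · exact fac_good h ht M ⟨by rw [hr, hd]; simp [det_fin_two], Or.inl (by rw [hd]; exact hr)⟩
  push Not at hs
  by_cases htr : (M : Matrix (Fin 2) (Fin 2) F).trace = 2 * d
  swap
  · exact fac_good h ht M ⟨by rw [hM, hd]; ring, Or.inr ⟨htr, hs⟩⟩
  obtain ⟨S, hS⟩ := exists_conj_comp _ hs
  rw [htr, hM] at hS
  obtain ⟨c, hc⟩ : ∃ c : F, 2 * t * c = 1 :=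
    ⟨(2 * t)⁻¹, mul_inv_cancel₀ (mul_ne_zero h2 ht)⟩
  let X : GL (Fin 2) F := Matrix.GeneralLinearGroup.mkOfDetNeZero !![c, 3 * t - c; c, t - c]
    (show (!![c, 3 * t - c; c, t - c] : Matrix (Fin 2) (Fin 2) F).det ≠ 0 by
      rw [show (!![c, 3 * t - c; c, t - c] : Matrix (Fin 2) (Fin 2) F).det = d by
        rw [hd]; simp [det_fin_two]; linear_combination -hc]
      exact h.d_ne_zero)
  have hX : IsConj (cG h) X := isConj_of_trace_det h X (by simp [X, trace_fin_two])
    (by simp [X, det_fin_two, hd]; linear_combination -hc)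
  let C : GL (Fin 2) F := Matrix.GeneralLinearGroup.mkOfDetNeZero (comp2 (2 * d) (1 : F)) (by simp)
  have hY : IsConj (cG h) (C * X) := isConj_of_trace_det h _
    (by simp [C, X, comp2, trace_fin_two, Matrix.mul_apply, Fin.sum_univ_two, hd]; ring)
    (by rw [Units.val_mul, det_mul]; simp [C, X, comp2, det_fin_two, hd]; linear_combination -hc)
  refine ⟨S * (C * X) * S⁻¹, S * X⁻¹ * S⁻¹, InClass.conj (Or.inl hY) S, InClass.conj ?_ S, ?_⟩
  · exact (InClass.inv (Or.inl hX))
  · rw [show S * (C * X) * S⁻¹ * (S * X⁻¹ * S⁻¹) = S * C * S⁻¹ by group]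
    exact Units.ext (by simpa [C] using hS)

end Cfsg.Agent.H19.GTwo
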