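import Cfsg.Agent.H19.GTwo.Transit
import Cfsg.Agent.H19.GTwo.Block

/-!
Elements `v · L` and `L · u` are conjugate to `L` for an elliptic Levi element `L`.
-/

set_option autoImplicit false

namespace Cfsg.Agent.H19.GTwo

open Matrix Cfsg.Lie Cfsg.Agent.H62.Covering.G2
open Cfsg.Agent.H19.PSpFour (comp2 NoRoot)

variable {F : Type*} [Field F]

/-- The unipotent radical. -/
def Urad (F : Type*) [Field F] : Subgroup ↥(G2 F) where
  carrier := {k | ap k (bas 6) = bas 6 ∧ (∃ c : F, ap k (bas 1) = bas 1 + c • bas 6) ∧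
    ∃ c : F, ap k (bas 2) = bas 2 + c • bas 6}
  one_mem' := ⟨by simp, ⟨0, by simp⟩, ⟨0, by simp⟩⟩
  mul_mem' := by
    rintro k l ⟨k6, ⟨c, k1⟩, ⟨e, k2⟩⟩ ⟨l6, ⟨c', l1⟩, ⟨e', l2⟩⟩
    exact ⟨by rw [ap_mul, l6, k6],
      ⟨c + c', by rw [ap_mul, l1, ap_add, ap_smul, k1, k6, add_smul, add_assoc]⟩,
      ⟨e + e', by rw [ap_mul, l2, ap_add, ap_smul, k2, k6, add_smul, add_assoc]⟩⟩
  inv_mem' := by
    rintro k ⟨k6, ⟨c, k1⟩, ⟨e, k2⟩⟩
    refine ⟨ap_injective k (by rw [ap_ap_inv, k6]), ⟨-c, ap_injective k ?_⟩, ⟨-e, ap_injective k ?_⟩⟩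
    · rw [ap_ap_inv, ap_add, ap_smul, k1, k6, neg_smul, add_neg_cancel_right]
    · rw [ap_ap_inv, ap_add, ap_smul, k2, k6, neg_smul, add_neg_cancel_right]

theorem uHigh_mem_Urad (a₁ a₂ s₁ s₂ t : F) : uHigh a₁ a₂ s₁ s₂ t ∈ Urad F :=
  ⟨uHigh_bas6 .., ⟨_, uHigh_bas1 ..⟩, ⟨_, uHigh_bas2 ..⟩⟩

theorem lev_bas1 (M : GL (Fin 2) F) : ap (lev M) (bas 1) =
    (M : Matrix (Fin 2) (Fin 2) F) 0 0 • bas 1 + (M : Matrix (Fin 2) (Fin 2) F) 1 0 • bas 2 := by
  funext i; fin_cases i <;> simp [levMap]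

theorem lev_bas2 (M : GL (Fin 2) F) : ap (lev M) (bas 2) =
    (M : Matrix (Fin 2) (Fin 2) F) 0 1 • bas 1 + (M : Matrix (Fin 2) (Fin 2) F) 1 1 • bas 2 := by
  funext i; fin_cases i <;> simp [levMap]

theorem lev_bas6 (M : GL (Fin 2) F) :
    ap (lev M) (bas 6) = (M : Matrix (Fin 2) (Fin 2) F).det • bas 6 := by
  rw [ap_lev, levMap_bas]

theorem conj_mem_Urad (M : GL (Fin 2) F) {k : ↥(G2 F)} (hk : k ∈ Urad F) :
    (lev M)⁻¹ * k * lev M ∈ Urad F := by
  obtain ⟨k6, ⟨c, k1⟩, ⟨e, k2⟩⟩ := hk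
  have hD : (M : Matrix (Fin 2) (Fin 2) F).det ≠ 0 :=
    ((Matrix.isUnit_iff_isUnit_det _).mp M.isUnit).ne_zero
  refine ⟨ap_injective (lev M) ?_, ⟨((M : Matrix (Fin 2) (Fin 2) F) 0 0 * c +
    (M : Matrix (Fin 2) (Fin 2) F) 1 0 * e) / (M : Matrix (Fin 2) (Fin 2) F).det, ap_injective (lev M) ?_⟩,
    ⟨((M : Matrix (Fin 2) (Fin 2) F) 0 1 * c +
    (M : Matrix (Fin 2) (Fin 2) F) 1 1 * e) / (M : Matrix (Fin 2) (Fin 2) F).det, ap_injective (lev M) ?_⟩⟩
  · rw [ap_mul, ap_mul, ap_ap_inv, lev_bas6, ap_smul, k6]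
  · rw [ap_mul, ap_mul, ap_ap_inv, ap_add, ap_smul (lev M), lev_bas6, smul_smul, div_mul_cancel₀ _ hD,
      lev_bas1, ap_add, ap_smul, ap_smul, k1, k2]
    module
  · rw [ap_mul, ap_mul, ap_ap_inv, ap_add, ap_smul (lev M), lev_bas6, smul_smul, div_mul_cancel₀ _ hD,
      lev_bas2, ap_add, ap_smul, ap_smul, k1, k2]
    module

theorem eq_one_of_commute {t D : F} (h : NoRoot t D) (hD1 : D ≠ 1) (M : GL (Fin 2) F)
    (htr : (M : Matrix (Fin 2) (Fin 2) F).trace = t) (hdet : (M : Matrix (Fin 2) (Fin 2) F).det = D)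
    {y : ↥(G2 F)} (hy : y ∈ Urad F) (hc : y * lev M = lev M * y) : y = 1 := by
  obtain ⟨y6, ⟨c, y1⟩, ⟨e, y2⟩⟩ := hy
  have q := fun i => congrArg (fun g => ap g (bas i)) hc
  have q1 := q 1; have q2 := q 2
  simp only [ap_mul, y1, y2, lev_bas1, lev_bas2, ap_add, ap_smul, y6, lev_bas6, hdet] at q1 q2
  have r1 := congrFun q1 6; have r2 := congrFun q2 6
  simp at r1 r2
  set a := (M : Matrix (Fin 2) (Fin 2) F) 0 0
  set b := (M : Matrix (Fin 2) (Fin 2) F) 0 1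
  set p := (M : Matrix (Fin 2) (Fin 2) F) 1 0
  set q' := (M : Matrix (Fin 2) (Fin 2) F) 1 1
  rw [trace_fin_two] at htr
  rw [det_fin_two] at hdet
  have hne : D ^ 2 - t * D + D ≠ 0 := h D
  have hc0 : c = 0 := by
    have : (D ^ 2 - t * D + D) * c = 0 := by
      linear_combination (q' - D) * r1 - p * r2 + D * c * htr - c * hdet
    exact (mul_eq_zero.mp this).resolve_left hne
  have he0 : e = 0 := by
    have : (D ^ 2 - t * D + D) * e = 0 := by
      linear_combination (a - D) * r2 - b * r1 + D * e * htr - e * hdet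
    exact (mul_eq_zero.mp this).resolve_left hne
  rw [hc0, zero_smul, add_zero] at y1
  rw [he0, zero_smul, add_zero] at y2
  have p6 := ap_pol y (bas 6) (bas 3)
  have p1 := ap_pol y (bas 1) (bas 3)
  have p2 := ap_pol y (bas 2) (bas 3)
  have pt := ap_trace y (bas 3)
  have pn := ap_nrm y (bas 3)
  rw [y6] at p6; rw [y1] at p1; rw [y2] at p2
  have hD : D ≠ 0 := h.d_ne_zero
  have q3 := q 3
  simp only [ap_mul] at q3
  rw [show ap (lev M) (bas 3) = D⁻¹ • bas 3 by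
    funext i; fin_cases i <;> simp [levMap, det_fin_two, hdet, a, b, p, q'] ,
    ap_smul, ap_lev] at q3
  generalize hf : ap y (bas 3) = f at p6 p1 p2 pt pn q3
  simp [pol] at p6 p1 p2
  simp at pt
  simp [nrm] at pn
  have s0 := congrFun q3 0; have s1 := congrFun q3 1; have s2 := congrFun q3 2
  simp [levMap] at s0 s1 s2
  change D⁻¹ * f 1 = a * f 1 + b * f 2 at s1
  change D⁻¹ * f 2 = p * f 1 + q' * f 2 at s2
  have f0 : f 0 = 0 := by
    by_contra hne0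
    exact hD1 (inv_eq_one.mp (mul_right_cancel₀ hne0 (s0.trans (one_mul (f 0)).symm)))
  have hni : D⁻¹ ^ 2 - t * D⁻¹ + D ≠ 0 := h D⁻¹
  have f1 : f 1 = 0 := by
    have : (D⁻¹ ^ 2 - t * D⁻¹ + D) * f 1 = 0 := by
      linear_combination (D⁻¹ - q') * s1 + b * s2 + D⁻¹ * f 1 * htr - f 1 * hdet
    exact (mul_eq_zero.mp this).resolve_left hni
  have f2 : f 2 = 0 := by
    have : (D⁻¹ ^ 2 - t * D⁻¹ + D) * f 2 = 0 := by
      linear_combination (D⁻¹ - a) * s2 + p * s1 + D⁻¹ * f 2 * htr - f 2 * hdet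
    exact (mul_eq_zero.mp this).resolve_left hni
  refine eq_one_of_fix y1 y2 ?_ y6
  rw [hf]
  funext i
  fin_cases i <;> simp [f0, f1, f2, p6, p1, p2]
  · simp [f0, f1, f2, p6, p1, p2] at pn
    linear_combination pn
  · linear_combination pt - f0

variable [Fintype F]

/-- Every element of `lev M · U` is conjugate to `lev M`. -/
theorem isConj_lev_mul {t D : F} (h : NoRoot t D) (hD1 : D ≠ 1) (M : GL (Fin 2) F)
    (htr : (M : Matrix (Fin 2) (Fin 2) F).trace = t) (hdet : (M : Matrix (Fin 2) (Fin 2) F).det = D)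
    {u : ↥(G2 F)} (hu : u ∈ Urad F) : IsConj (lev M) (lev M * u) := by
  let φ : ↥(Urad F) → ↥(Urad F) := fun w =>
    ⟨(lev M)⁻¹ * w.1 * lev M * w.1⁻¹, mul_mem (conj_mem_Urad M w.2) (inv_mem w.2)⟩
  have hinj : Function.Injective φ := by
    intro w w' e
    have e' : w.1 * lev M * w.1⁻¹ = w'.1 * lev M * w'.1⁻¹ := by
      have := congrArg (fun z : ↥(Urad F) => lev M * z.1) e
      simpa [φ, mul_assoc] using this
    have := eq_one_of_commute h hD1 M htr hdet (mul_mem (inv_mem w'.2) w.2) (by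
      calc w'.1⁻¹ * w.1 * lev M = w'.1⁻¹ * (w.1 * lev M * w.1⁻¹) * w.1 := by group
      _ = _ := by rw [e']; group)
    exact Subtype.ext (inv_mul_eq_one.mp this).symm
  obtain ⟨w, hw⟩ := (Finite.injective_iff_surjective.mp hinj) ⟨u, hu⟩
  refine isConj_iff.mpr ⟨w.1, ?_⟩
  rw [show u = (φ w).1 by rw [hw]]
  simp [φ, mul_assoc]

/-- The transpose. -/
abbrev sw (F : Type*) [Field F] : ↥(G2 F) := Cfsg.Agent.H62.Covering.G2.swap

theorem swap_swap : (sw F) * (sw F) = 1 :=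
  ap_ext fun x => by funext i; fin_cases i <;> simp [ap_mul, swapMap]

theorem swap_inv : (sw F)⁻¹ = (sw F) := inv_eq_of_mul_eq_one_right swap_swap

theorem swap_lev (B : GL (Fin 2) F) :
    ∃ B' : GL (Fin 2) F, (sw F) * lev B * (sw F) = lev B' ∧
      (B' : Matrix (Fin 2) (Fin 2) F).trace =
        (B : Matrix (Fin 2) (Fin 2) F).trace / (B : Matrix (Fin 2) (Fin 2) F).det ∧
      (B' : Matrix (Fin 2) (Fin 2) F).det = ((B : Matrix (Fin 2) (Fin 2) F).det)⁻¹ := by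
  have hD : (B : Matrix (Fin 2) (Fin 2) F).det ≠ 0 :=
    ((Matrix.isUnit_iff_isUnit_det _).mp B.isUnit).ne_zero
  let N : Matrix (Fin 2) (Fin 2) F := ((B : Matrix (Fin 2) (Fin 2) F).det)⁻¹ •
    !![(B : Matrix (Fin 2) (Fin 2) F) 1 1, -(B : Matrix (Fin 2) (Fin 2) F) 1 0;
      -(B : Matrix (Fin 2) (Fin 2) F) 0 1, (B : Matrix (Fin 2) (Fin 2) F) 0 0]
  have hN : N.det = ((B : Matrix (Fin 2) (Fin 2) F).det)⁻¹ := by
    rw [det_fin_two] at hD
    simp [N, det_fin_two]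
    field_simp
  refine ⟨Matrix.GeneralLinearGroup.mkOfDetNeZero N (by rw [hN]; exact inv_ne_zero hD),
    ap_ext fun x => ?_, ?_, hN⟩
  · simp only [ap_mul, ap_lev, ap_swap]
    show swapMap (levMap (B : Matrix (Fin 2) (Fin 2) F) (swapMap x)) = levMap N x
    rw [det_fin_two] at hD
    funext i
    fin_cases i <;> simp [swapMap, levMap, N, det_fin_two] <;> grind
  · show N.trace = _
    simp [N, trace_fin_two]
    ring

variable {t d : F}

theorem isConj_lev_of_inClass (h : NoRoot t d) {B : GL (Fin 2) F} (hB : InClass h B) :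
    IsConj (lev (cG h)) (lev B) := by
  have hcl : IsConj (lev (cG h)) (lev (cG h)⁻¹) := by
    obtain ⟨B', hB', htr, hdet⟩ := swap_lev (cG h)
    simp at htr hdet
    refine (isConj_iff.mpr ⟨(sw F), ?_⟩ : IsConj (lev (cG h)) (lev B')).trans ?_
    · rw [swap_inv, hB']
    · exact (MonoidHom.map_isConj lev (isConj_inv_of_trace_det h B' htr hdet)).symm
  rcases hB with hB | hB
  · exact MonoidHom.map_isConj lev hB
  · exact hcl.trans (MonoidHom.map_isConj lev hB)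

theorem InClass.trace_det (h : NoRoot t d) (hd : d ≠ 1) {B : GL (Fin 2) F} (hB : InClass h B) :
    NoRoot (B : Matrix (Fin 2) (Fin 2) F).trace (B : Matrix (Fin 2) (Fin 2) F).det ∧
      (B : Matrix (Fin 2) (Fin 2) F).det ≠ 1 := by
  rcases hB with hB | hB <;> obtain ⟨c, rfl⟩ := isConj_iff.mp hB
  · rw [Units.val_mul, Units.val_mul, Matrix.trace_units_conj, Matrix.det_units_conj]
    simpa using ⟨h, hd⟩
  · rw [Units.val_mul, Units.val_mul, Matrix.trace_units_conj, Matrix.det_units_conj,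
      Matrix.coe_units_inv, coe_cG, Matrix.det_nonsing_inv, Matrix.inv_def, Matrix.trace_smul,
      adjugate_fin_two, PSpFour.comp2_det, Ring.inverse_eq_inv']
    simp [comp2, trace_fin_two]
    exact ⟨by simpa [div_eq_inv_mul] using noRoot_inv h, hd⟩

/-- `lev B · u` is conjugate to the representative. -/
theorem isConj_high (h : NoRoot t d) (hd : d ≠ 1) {B : GL (Fin 2) F} (hB : InClass h B)
    {u : ↥(G2 F)} (hu : u ∈ Urad F) : IsConj (lev (cG h)) (lev B * u) :=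
  (isConj_lev_of_inClass h hB).trans
    (isConj_lev_mul (hB.trace_det h hd).1 (hB.trace_det h hd).2 B rfl rfl hu)

/-- `v · lev B` is conjugate to the representative. -/
theorem isConj_low (h : NoRoot t d) (hd : d ≠ 1) {B : GL (Fin 2) F} (hB : InClass h B)
    {v : ↥(G2 F)} (hv : (sw F) * v * (sw F) ∈ Urad F) : IsConj (lev (cG h)) (v * lev B) := by
  obtain ⟨B', hB', htr, hdet⟩ := swap_lev B
  obtain ⟨hn, hd1⟩ := hB.trace_det h hd
  have h1 := isConj_lev_mul (noRoot_inv hn) (inv_ne_one.mpr hd1) B' htr hdet hv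
  have h2 : IsConj (lev B) (lev B') := isConj_iff.mpr ⟨(sw F), by rw [swap_inv, hB']⟩
  refine (((isConj_lev_of_inClass h hB).trans h2).trans h1).trans
    (isConj_iff.mpr ⟨v * (sw F), ?_⟩)
  rw [← hB', _root_.mul_inv_rev, swap_inv]
  calc v * (sw F) * ((sw F) * lev B * (sw F) * ((sw F) * v * (sw F))) * ((sw F) * v⁻¹)
      = v * ((sw F) * (sw F)) * lev B * ((sw F) * (sw F)) * v * ((sw F) * (sw F)) * v⁻¹ := by group
    _ = v * lev B := by rw [swap_swap]; group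

theorem vLow_swap_mem (c₁ c₂ p r τ : F) : (sw F) * vLow c₁ c₂ p r τ * (sw F) ∈ Urad F := by
  refine ⟨?_, ⟨-c₂, ?_⟩, ⟨c₁, ?_⟩⟩
  all_goals funext i; fin_cases i <;> simp [ap_mul, vLow, swapMap, psiMap, phiMap]

/-- A product of two conjugates of `x`. -/
def IsProd (h : NoRoot t d) (g : ↥(G2 F)) : Prop :=
  ∃ a b : ↥(G2 F), IsConj (lev (cG h)) a ∧ IsConj (lev (cG h)) b ∧ g = a * b

theorem IsProd.conj {h : NoRoot t d} {g : ↥(G2 F)} (hg : IsProd h g) (k : ↥(G2 F)) :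
    IsProd h (k * g * k⁻¹) := by
  obtain ⟨a, b, ha, hb, rfl⟩ := hg
  exact ⟨k * a * k⁻¹, k * b * k⁻¹, ha.trans (isConj_iff.mpr ⟨k, rfl⟩),
    hb.trans (isConj_iff.mpr ⟨k, rfl⟩), by group⟩

theorem IsProd.of_conj {h : NoRoot t d} {g : ↥(G2 F)} (k : ↥(G2 F)) (hg : IsProd h (k * g * k⁻¹)) :
    IsProd h g := by
  simpa [mul_assoc] using hg.conj k⁻¹

theorem IsProd.inv {h : NoRoot t d} {g : ↥(G2 F)} (hg : IsProd h g) : IsProd h g⁻¹ := by
  obtain ⟨a, b, ha, hb, rfl⟩ := hg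
  have hx : IsConj (lev (cG h)) (lev (cG h))⁻¹ := by
    rw [← map_inv]; exact isConj_lev_of_inClass h (Or.inr (IsConj.refl _))
  have key : ∀ a, IsConj (lev (cG h)) a → IsConj (lev (cG h)) a⁻¹ := fun a ha => by
    obtain ⟨c, rfl⟩ := isConj_iff.mp ha
    exact hx.trans (isConj_iff.mpr ⟨c, by group⟩)
  exact ⟨b⁻¹, a⁻¹, key b hb, key a ha, _root_.mul_inv_rev a b⟩

/-- The Gauss form with a factorisable block. -/
theorem isProd_of_fac (h : NoRoot t d) (hd : d ≠ 1) {M : GL (Fin 2) F} (hM : Fac h M)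
    {v u : ↥(G2 F)} (hv : (sw F) * v * (sw F) ∈ Urad F) (hu : u ∈ Urad F) :
    IsProd h (v * lev M * u) := by
  obtain ⟨B, C, hB, hC, rfl⟩ := hM
  exact ⟨v * lev B, lev C * u, isConj_low h hd hB hv, isConj_high h hd hC hu, by rw [map_mul]; group⟩

end Cfsg.Agent.H19.GTwo
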