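import Cfsg.Agent.H19.GTwo.Conj

/-!
The Gauss form `v · lev M · u` of an element with non-zero last diagonal coordinate.
-/

set_option autoImplicit false

namespace Cfsg.Agent.H19.GTwo

open Matrix Cfsg.Lie Cfsg.Agent.H62.Covering.G2

variable {F : Type*} [Field F] [Fintype F]

/-- Being in the opposite radical. -/
def IsLow (v : ↥(G2 F)) : Prop := sw F * v * sw F ∈ Urad F

theorem isLow_vLow (c₁ c₂ p r τ : F) : IsLow (vLow c₁ c₂ p r τ) := vLow_swap_mem ..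

theorem low_bas (v : ↥(G2 F)) (h : IsLow v) :
    ap v (bas 3) = bas 3 ∧ (∃ c : F, ap v (bas 4) = bas 4 + c • bas 3) ∧
      ∃ c : F, ap v (bas 5) = bas 5 + c • bas 3 := by
  obtain ⟨h6, ⟨c, h1⟩, ⟨e, h2⟩⟩ := h
  rw [ap_mul, ap_mul] at h6 h1 h2
  have s : ∀ x : O8 F, ap (sw F) (ap (sw F) x) = x := fun x => by rw [← ap_mul, swap_swap, ap_one]
  have s6 : ap (sw F) (bas 6) = (-1 : F) • bas 3 := by funext i; fin_cases i <;> simp [swapMap]
  have s1 : ap (sw F) (bas 1) = (-1 : F) • bas 4 := by funext i; fin_cases i <;> simp [swapMap]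
  have s2 : ap (sw F) (bas 2) = (-1 : F) • bas 5 := by funext i; fin_cases i <;> simp [swapMap]
  have k6 := congrArg (ap (sw F)) h6
  have k1 := congrArg (ap (sw F)) h1
  have k2 := congrArg (ap (sw F)) h2
  rw [s, s6, ap_smul] at k6
  rw [s, s1, ap_add, ap_smul (sw F), s1, s6, ap_smul, smul_smul] at k1
  rw [s, s2, ap_add, ap_smul (sw F), s2, s6, ap_smul, smul_smul] at k2
  refine ⟨smul_right_injective _ (by simp : (-1 : F) ≠ 0) k6,
    ⟨c, smul_right_injective _ (by simp : (-1 : F) ≠ 0) (k1.trans (by module))⟩,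
    ⟨e, smul_right_injective _ (by simp : (-1 : F) ≠ 0) (k2.trans (by module))⟩⟩

theorem low_apply6 (v : ↥(G2 F)) (h : IsLow v) : ap v (bas 6) 6 = 1 := by
  have e := ap_pol v (bas 6) (bas 3)
  rw [(low_bas v h).1] at e
  simpa [pol] using e

theorem low_eq_of_apply (v w : ↥(G2 F)) (hv : IsLow v) (hw : IsLow w)
    (e : ap v (bas 6) = ap w (bas 6)) : v = w := by
  have hy : IsLow (w⁻¹ * v) := by
    show sw F * (w⁻¹ * v) * sw F ∈ Urad F
    have : sw F * (w⁻¹ * v) * sw F = (sw F * w * sw F)⁻¹ * (sw F * v * sw F) := by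
      rw [_root_.mul_inv_rev, _root_.mul_inv_rev, swap_inv]
      calc sw F * (w⁻¹ * v) * sw F = sw F * w⁻¹ * 1 * v * sw F := by group
      _ = sw F * w⁻¹ * (sw F * sw F) * v * sw F := by rw [swap_swap]
      _ = _ := by group
    rw [this]; exact mul_mem (inv_mem hw) hv
  set y := w⁻¹ * v with hydef
  have y6 : ap y (bas 6) = bas 6 := by rw [hydef, ap_mul, e, ap_inv_ap]
  obtain ⟨y3, ⟨c, y4⟩, ⟨d, y5⟩⟩ := low_bas y hy
  have p4 := ap_pol y (bas 6) (bas 4)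
  have p5 := ap_pol y (bas 6) (bas 5)
  rw [y6, y4] at p4; rw [y6, y5] at p5
  simp [pol] at p4 p5
  rw [p4, zero_smul, add_zero] at y4
  rw [p5, zero_smul, add_zero] at y5
  have prod : ∀ i j k : Fin 8, zornMul (bas i) (bas j) = (bas k : O8 F) → ap y (bas i) = bas i →
      ap y (bas j) = bas j → ap y (bas k) = bas k := fun i j k e hi hj => by
    rw [← e, ap_zorn, hi, hj]
  have hneg : ∀ i j k : Fin 8, zornMul (bas i) (bas j) = -(bas k : O8 F) → ap y (bas i) = bas i →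
      ap y (bas j) = bas j → ap y (bas k) = bas k := fun i j k e hi hj => by
    have h := ap_zorn y (bas i) (bas j)
    rw [hi, hj, e, ← neg_one_smul F (bas k : O8 F), ap_smul] at h
    exact smul_right_injective _ (by simp : (-1 : F) ≠ 0) h
  have y1 := hneg 5 6 1 (by funext i; fin_cases i <;> simp [zornMul, dot3, cross3]) y5 y6
  have y2 := hneg 6 4 2 (by funext i; fin_cases i <;> simp [zornMul, dot3, cross3]) y6 y4
  exact (inv_mul_eq_one.mp (eq_one_of_fix y1 y2 y3 y6)).symm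

/-- The block of an element. -/
def blk (k : ↥(G2 F)) : Matrix (Fin 2) (Fin 2) F :=
  !![ap k (bas 1) 1 - ap k (bas 6) 1 * ap k (bas 1) 6 / ap k (bas 6) 6,
     ap k (bas 2) 1 - ap k (bas 6) 1 * ap k (bas 2) 6 / ap k (bas 6) 6;
     ap k (bas 1) 2 - ap k (bas 6) 2 * ap k (bas 1) 6 / ap k (bas 6) 6,
     ap k (bas 2) 2 - ap k (bas 6) 2 * ap k (bas 2) 6 / ap k (bas 6) 6]

/-- The Gauss form. -/
theorem exists_gauss (k : ↥(G2 F)) (h : ap k (bas 6) 6 ≠ 0) :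
    ∃ (c₁ c₂ p r τ : F) (M : GL (Fin 2) F) (u : ↥(G2 F)), u ∈ Urad F ∧
      k = vLow c₁ c₂ p r τ * lev M * u ∧ (M : Matrix (Fin 2) (Fin 2) F).det = ap k (bas 6) 6 ∧
      ap k (bas 6) = ap k (bas 6) 6 • ap (vLow c₁ c₂ p r τ) (bas 6) ∧
      (M : Matrix (Fin 2) (Fin 2) F) = blk k := by
  set f := ap k (bas 6) with hf
  obtain ⟨c₁, c₂, p, r, τ, hv⟩ := exists_vLow ((f 6)⁻¹ • f)
    (by simp only [Pi.smul_apply, smul_eq_mul, ← mul_add, hf, ap_trace]; simp)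
    (by
      have e : ∀ (c : F) (y : O8 F), nrm (c • y) = c ^ 2 * nrm y := fun c y => by simp [nrm]; ring
      rw [e, hf, ap_nrm]; simp [nrm])
    (by simp [h])
  set v := vLow c₁ c₂ p r τ with hvdef
  have hfv : f = f 6 • ap v (bas 6) := by rw [hv, smul_smul, mul_inv_cancel₀ h, one_smul]
  obtain ⟨M, a₁, a₂, s₁, s₂, t, hdet, hdec⟩ := exists_stab_decomp (g := v⁻¹ * k) (D := f 6) (by
    apply ap_injective v
    rw [ap_mul, ap_ap_inv, ap_smul, ← hf]; exact hfv)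
  rw [inv_mul_eq_iff_eq_mul] at hdec
  refine ⟨c₁, c₂, p, r, τ, M, _, uHigh_mem_Urad a₁ a₂ s₁ s₂ t, by rw [hdec, mul_assoc], hdet, hfv, ?_⟩
  have v11 : ap v (bas 1) 1 = 1 ∧ ap v (bas 1) 2 = 0 ∧ ap v (bas 1) 6 = 0 := by
    refine ⟨?_, ?_, ?_⟩ <;> simp [hvdef, vLow, ap_mul, psiMap, phiMap]
  have v22 : ap v (bas 2) 1 = 0 ∧ ap v (bas 2) 2 = 1 ∧ ap v (bas 2) 6 = 0 := by
    refine ⟨?_, ?_, ?_⟩ <;> simp [hvdef, vLow, ap_mul, psiMap, phiMap]
  have k1 : ap k (bas 1) = (M : Matrix (Fin 2) (Fin 2) F) 0 0 • ap v (bas 1) +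
      (M : Matrix (Fin 2) (Fin 2) F) 1 0 • ap v (bas 2) + (-a₂) • f := by
    rw [hdec, ap_mul, ap_mul, uHigh_bas1, ap_add, ap_smul, lev_bas1, lev_bas6, hdet, ap_add, ap_add,
      ap_smul, ap_smul, ap_smul, ap_smul]
    rw [← hfv]
  have k2 : ap k (bas 2) = (M : Matrix (Fin 2) (Fin 2) F) 0 1 • ap v (bas 1) +
      (M : Matrix (Fin 2) (Fin 2) F) 1 1 • ap v (bas 2) + a₁ • f := by
    rw [hdec, ap_mul, ap_mul, uHigh_bas2, ap_add, ap_smul, lev_bas2, lev_bas6, hdet, ap_add, ap_add,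
      ap_smul, ap_smul, ap_smul, ap_smul]
    rw [← hfv]
  ext i j
  fin_cases i <;> fin_cases j <;> simp [blk, k1, k2, ← hf, v11.1, v11.2.1, v11.2.2, v22.1, v22.2.1, v22.2.2] <;> field_simp <;> ring

end Cfsg.Agent.H19.GTwo
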