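import Cfsg.Agent.H19.GTwo.Find
import Cfsg.Agent.H19.GTwo.Gauss

/-!
The square of the class of the elliptic Levi element covers all non-identity elements.
-/

set_option autoImplicit false

namespace Cfsg.Agent.H19.GTwo

open Matrix Cfsg.Lie Cfsg.Agent.H62.Covering.G2
open Cfsg.Agent.H19.PSpFour (comp2 NoRoot GoodBlock exists_conj_comp)

variable {F : Type*} [Field F] [Fintype F] {t d : F}

theorem IsLow.conj_lev {v : ↥(G2 F)} (hv : IsLow v) (P : GL (Fin 2) F) :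
    IsLow ((lev P)⁻¹ * v * lev P) := by
  obtain ⟨P', hP, -, -⟩ := swap_lev P
  show sw F * ((lev P)⁻¹ * v * lev P) * sw F ∈ Urad F
  have e : sw F * ((lev P)⁻¹ * v * lev P) * sw F = (lev P')⁻¹ * (sw F * v * sw F) * lev P' := by
    rw [← hP, _root_.mul_inv_rev, _root_.mul_inv_rev, swap_inv]
    calc sw F * ((lev P)⁻¹ * v * lev P) * sw F
        = sw F * (lev P)⁻¹ * 1 * v * 1 * lev P * sw F := by group
      _ = sw F * (lev P)⁻¹ * (sw F * sw F) * v * (sw F * sw F) * lev P * sw F := by rw [swap_swap]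
      _ = _ := by group
  rw [e]
  exact conj_mem_Urad P' hv

/-- The non-semisimple block of characteristic two. -/
def jG (hd : d ≠ 0) : GL (Fin 2) F :=
  Matrix.GeneralLinearGroup.mkOfDetNeZero !![d, d; 0, d] (by simp [det_fin_two, hd])

@[simp] theorem coe_jG (hd : d ≠ 0) :
    ((jG hd : GL (Fin 2) F) : Matrix (Fin 2) (Fin 2) F) = !![d, d; 0, d] := rfl

/-- Conjugating by `w` in the radical. -/
theorem isProd_step (h : NoRoot t d) (ht : t ≠ 0) (hd : d ≠ 1) (h2 : (2 : F) = 0)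
    {u w : ↥(G2 F)} (hu : u ∈ Urad F) (hw : w ∈ Urad F) (v : ↥(G2 F)) (N : Matrix (Fin 2) (Fin 2) F)
    (hN : blk (w * v) = N)
    (he : (ap (w * v) (bas 6) 6 = 1 ∧ (N 0 0 + N 1 0 + N 1 1 ≠ 0 ∨ N * !![d, d; 0, d] = d • 1)) ∨
      (ap (w * v) (bas 6) 6 = (d ^ 4)⁻¹ ∧ N 0 0 + N 1 0 + N 1 1 ≠ 0)) :
    IsProd h (v * lev (jG h.d_ne_zero) * u) := by
  have hd0 := h.d_ne_zero
  have hne : ap (w * v) (bas 6) 6 ≠ 0 := by
    rcases he with ⟨e, -⟩ | ⟨e, -⟩ <;> rw [e] <;> simp [hd0]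
  obtain ⟨c₁, c₂, p, r, τ, M, u', hu', hk, hdet, -, hM⟩ := exists_gauss (w * v) hne
  rw [hN] at hM
  set J := jG h.d_ne_zero
  refine IsProd.of_conj w ?_
  have e : w * (v * lev J * u) * w⁻¹ = vLow c₁ c₂ p r τ * lev (M * J) *
      ((lev J)⁻¹ * u' * lev J * (u * w⁻¹)) := by
    rw [map_mul]
    calc w * (v * lev J * u) * w⁻¹ = (w * v) * lev J * (u * w⁻¹) := by group
    _ = _ := by rw [hk]; group
  rw [e]
  refine isProd_of_fac h hd ?_ (vLow_swap_mem ..)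
    (mul_mem (conj_mem_Urad J hu') (mul_mem hu (inv_mem hw)))
  have hns : N 0 0 + N 1 0 + N 1 1 ≠ 0 →
      ((M * J : GL (Fin 2) F) : Matrix (Fin 2) (Fin 2) F).trace ≠ 0 ∧
      ∀ c : F, ((M * J : GL (Fin 2) F) : Matrix (Fin 2) (Fin 2) F) ≠ c • 1 := by
    intro hT
    have htr : ((M * J : GL (Fin 2) F) : Matrix (Fin 2) (Fin 2) F).trace =
        d * (N 0 0 + N 1 0 + N 1 1) := by
      rw [Units.val_mul, hM]
      simp [J, trace_fin_two, Matrix.mul_apply, Fin.sum_univ_two]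
      ring
    refine ⟨by rw [htr]; exact mul_ne_zero hd0 hT, fun c hc => mul_ne_zero hd0 hT ?_⟩
    rw [← htr, hc, trace_fin_two]
    simp only [Matrix.smul_apply, Matrix.one_apply_eq, smul_eq_mul, mul_one]
    linear_combination c * h2
  have hdetJ : ((M * J : GL (Fin 2) F) : Matrix (Fin 2) (Fin 2) F).det =
      ap (w * v) (bas 6) 6 * d ^ 2 := by
    rw [Units.val_mul, det_mul, hdet]; simp [J, det_fin_two, sq]
  rcases he with ⟨e1, hc⟩ | ⟨e1, hc⟩
  · refine fac_good h ht _ ⟨by rw [hdetJ, e1, one_mul], ?_⟩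
    rcases hc with hc | hc
    · exact Or.inr ⟨by rw [h2, zero_mul]; exact (hns hc).1, (hns hc).2⟩
    · exact Or.inl (by rw [Units.val_mul, hM]; simpa [J] using hc)
  · refine fac_good_inv h ht _ ⟨?_, Or.inr ⟨by rw [h2, zero_mul]; exact (hns hc).1, (hns hc).2⟩⟩
    rw [hdetJ, e1]
    field_simp

set_option maxHeartbeats 2000000 in
/-- The exceptional block of characteristic two. -/
theorem isProd_special (h : NoRoot t d) (ht : t ≠ 0) (hd : d ≠ 1) (h2 : (2 : F) = 0)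
    {c₁ c₂ p r τ : F} (hrel : τ ^ 2 + c₁ * r + c₂ * p = 0)
    (hne : ¬ (c₁ = 0 ∧ c₂ = 0 ∧ p = 0 ∧ r = 0 ∧ τ = 0)) {u : ↥(G2 F)} (hu : u ∈ Urad F) :
    IsProd h (vLow c₁ c₂ p r τ * lev (jG h.d_ne_zero) * u) := by
  have hd0 := h.d_ne_zero
  have hneg : ∀ x : F, -x = x := fun x => by linear_combination -x * h2
  have hsub : ∀ x y : F, x - y = x + y := fun x y => by linear_combination -y * h2
  have htwo : ∀ x : F, 2 * x = 0 := fun x => by rw [h2, zero_mul]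
  have mphi : ∀ a b : F, phi a b 0 ∈ Urad F := fun a b => by
    refine ⟨?_, ⟨-b, ?_⟩, ⟨a, ?_⟩⟩ <;> funext i <;> fin_cases i <;> simp [phiMap]
  have m13 : ∀ a b : F, e13 a * e23 b ∈ Urad F := fun a b => by
    refine ⟨?_, ⟨0, ?_⟩, ⟨0, ?_⟩⟩ <;> funext i <;> fin_cases i <;> simp [ap_mul]
  by_cases hc1 : c₁ ≠ 0
  · obtain ⟨s, hs, hs'⟩ : ∃ s : F, s ≠ 0 ∧ 1 + s * τ + s ^ 2 * τ ^ 2 = 1 := by
      by_cases hτ : τ = 0
      · exact ⟨1, one_ne_zero, by simp [hτ]⟩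
      · exact ⟨τ⁻¹, inv_ne_zero hτ, by field_simp; linear_combination h2⟩
    refine isProd_step h ht hd h2 hu (mphi (s * c₂) (s * c₁)) _ _ rfl (Or.inl ⟨?_, Or.inl ?_⟩)
    · simp [ap_mul, vLow, psiMap, phiMap, hneg, hsub]
      grind
    · intro e
      apply mul_ne_zero hs (pow_ne_zero 2 hc1)
      simp [blk, ap_mul, vLow, psiMap, phiMap, hneg, hsub] at e
      grind
  push Not at hc1
  subst hc1
  by_cases hp : p ≠ 0
  · refine isProd_step h ht hd h2 hu (m13 r p) _ _ rfl (Or.inl ⟨?_, Or.inl ?_⟩)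
    · simp [ap_mul, vLow, psiMap, phiMap, hneg, hsub]
      grind
    · intro e
      apply pow_ne_zero 2 hp
      simp [blk, ap_mul, vLow, psiMap, phiMap, hneg, hsub] at e
      grind
  push Not at hp
  subst hp
  have hτ : τ = 0 := pow_eq_zero_iff two_ne_zero |>.1 (show τ ^ 2 = 0 by linear_combination hrel)
  subst hτ
  by_cases hr : r ≠ 0
  · have he1 : (d ^ 4)⁻¹ ≠ 1 := by
      intro e
      rw [inv_eq_one] at e
      have : (d - 1) ^ 4 = 0 := by linear_combination e + (-2 * d ^ 3 + 3 * d ^ 2 - 2 * d + 1) * h2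
      exact hd (sub_eq_zero.mp (pow_eq_zero_iff (by norm_num) |>.1 this))
    refine isProd_step h ht hd h2 hu (m13 0 (((d ^ 4)⁻¹ - 1) / r)) _ _ rfl (Or.inr ⟨?_, ?_⟩)
    · simp [ap_mul, vLow, psiMap, phiMap, hneg, hsub]
      grind
    · intro e
      apply he1
      simp [blk, ap_mul, vLow, psiMap, phiMap, hneg, hsub] at e
      grind
  push Not at hr
  subst hr
  have hc2 : c₂ ≠ 0 := fun e => hne ⟨rfl, e, rfl, rfl, rfl⟩
  refine isProd_step h ht hd h2 hu (m13 0 (c₂ ^ 3)⁻¹) _ _ rfl (Or.inl ⟨?_, Or.inr ?_⟩)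
  · simp [ap_mul, vLow, psiMap, phiMap]
  · ext i j
    fin_cases i <;> fin_cases j <;>
      simp [blk, ap_mul, vLow, psiMap, phiMap, hneg, hsub, Matrix.mul_apply, Fin.sum_univ_two] <;> grind

/-- The covering. -/
theorem cover (h : NoRoot t d) (ht : t ≠ 0) (hd : d ≠ 1) (hodd : (2 : F) ≠ 0 → d = -1)
    {g : ↥(G2 F)} (hg : g ≠ 1) : IsProd h g := by
  have hd0 := h.d_ne_zero
  obtain ⟨k₀, hk₀⟩ := exists_skew hg
  obtain ⟨k₁, hk₁, h6⟩ := hk₀.adjust (d ^ 2)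
  refine IsProd.of_conj k₀ (IsProd.of_conj k₁ ?_)
  generalize k₁ * (k₀ * g * k₀⁻¹) * k₁⁻¹ = g' at hk₁ h6
  obtain ⟨c₁, c₂, p, r, τ, M, u, hu, hdec, hdet, hf, -⟩ :=
    exists_gauss g' (by rw [h6]; exact pow_ne_zero 2 hd0)
  rw [h6] at hdet hf
  by_cases h2 : (2 : F) = 0
  swap
  · rw [hdec]
    exact isProd_of_fac h hd (fac_det_one h ht (hodd h2) h2 M (by rw [hdet, hodd h2]; ring))
      (vLow_swap_mem ..) hu
  by_cases hs : ∃ c : F, (M : Matrix (Fin 2) (Fin 2) F) = c • 1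
  · obtain ⟨c, hc⟩ := hs
    rw [hc, det_smul, det_one, Fintype.card_fin, mul_one] at hdet
    have : c = d := sub_eq_zero.mp (pow_eq_zero_iff two_ne_zero |>.1
      (show (c - d) ^ 2 = 0 by linear_combination hdet + (d ^ 2 - c * d) * h2))
    subst this
    rw [hdec]
    exact isProd_of_fac h hd (fac_good h ht M ⟨by rw [hc]; simp, Or.inl hc⟩) (vLow_swap_mem ..) hu
  push Not at hs
  by_cases htr : (M : Matrix (Fin 2) (Fin 2) F).trace ≠ 0
  · rw [hdec]
    exact isProd_of_fac h hd (fac_good h ht M ⟨hdet, Or.inr ⟨by rw [h2, zero_mul]; exact htr, hs⟩⟩)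
      (vLow_swap_mem ..) hu
  push Not at htr
  obtain ⟨S, hS⟩ := exists_conj_comp _ hs
  have hJns : ∀ c : F, (!![d, d; 0, d] : Matrix (Fin 2) (Fin 2) F) ≠ c • 1 := fun c e => by
    have := congrFun (congrFun e 0) 1; simp [hd0] at this
  obtain ⟨R, hR⟩ := exists_conj_comp _ hJns
  have eR : (!![d, d; 0, d] : Matrix (Fin 2) (Fin 2) F).trace = 0 := by
    simp [trace_fin_two]; linear_combination d * h2
  have eD : (!![d, d; 0, d] : Matrix (Fin 2) (Fin 2) F).det = d ^ 2 := by simp [det_fin_two, sq]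
  rw [htr, hdet] at hS
  rw [eR, eD] at hR
  set P : GL (Fin 2) F := S * R⁻¹
  have hMP : M = P * jG hd0 * P⁻¹ := by
    refine Units.ext ?_
    simp only [P, Units.val_mul, coe_jG, hR, _root_.mul_inv_rev, inv_inv]
    rw [hS]
    simp [Matrix.mul_assoc]
  clear_value P
  refine IsProd.of_conj (lev P)⁻¹ ?_
  rw [inv_inv]
  have e : (lev P)⁻¹ * g' * lev P = ((lev P)⁻¹ * vLow c₁ c₂ p r τ * lev P) * lev (jG hd0) *
      ((lev P)⁻¹ * u * lev P) := by
    rw [hdec, hMP, map_mul, map_mul, map_inv]; group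
  have hlow := IsLow.conj_lev (isLow_vLow c₁ c₂ p r τ) P
  set v' := (lev P)⁻¹ * vLow c₁ c₂ p r τ * lev P with hv'
  obtain ⟨a₁, a₂, p', r', τ', hv⟩ := exists_vLow (ap v' (bas 6)) (by rw [ap_trace]; simp)
    (by rw [ap_nrm]; simp [nrm]) (low_apply6 _ hlow)
  have heq : v' = vLow a₁ a₂ p' r' τ' := low_eq_of_apply _ _ hlow (isLow_vLow ..) hv.symm
  rw [e, heq]
  have hD : (P : Matrix (Fin 2) (Fin 2) F).det ≠ 0 :=
    ((Matrix.isUnit_iff_isUnit_det _).mp P.isUnit).ne_zero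
  have hvf : ap (lev P) (ap v' (bas 6)) =
      (P : Matrix (Fin 2) (Fin 2) F).det • ap (vLow c₁ c₂ p r τ) (bas 6) := by
    rw [hv', ap_mul, ap_mul, ap_ap_inv, lev_bas6, ap_smul]
  have h3 : ap (vLow c₁ c₂ p r τ) (bas 6) 3 = 0 := by
    have := hk₁.1
    rw [hf] at this
    simpa [hd0] using this
  have h3' : ap v' (bas 6) 3 = 0 := by
    have := congrFun hvf 3
    simpa [levMap, h3, hD] using this
  refine isProd_special h ht hd h2 ?_ ?_ (conj_mem_Urad P hu)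
  · rw [heq, ap_vLow_bas] at h3'
    simp at h3'
    linear_combination -h3' + (a₂ * p') * h2
  · rintro ⟨rfl, rfl, rfl, rfl, rfl⟩
    refine hk₁.2 (d ^ 2) ?_
    have e6 : ap v' (bas 6) = bas 6 := by
      rw [heq, ap_vLow_bas]; funext i; fin_cases i <;> simp
    rw [e6, lev_bas6] at hvf
    rw [hf, ← smul_right_injective _ hD hvf]

/-- The order of the representative. -/
theorem lev_pow (h : NoRoot t d) : lev (cG h) ^ (Fintype.card F ^ 2 - 1) = 1 := by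
  rw [← map_pow, show cG h ^ (Fintype.card F ^ 2 - 1) = 1 from
    Units.ext (by simp [PSpFour.comp2_pow h]), map_one]

end Cfsg.Agent.H19.GTwo
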