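import Cfsg.Agent.H19.GTwo.Conj
import Mathlib.FieldTheory.ChevalleyWarning

/-!
Every non-identity element has a conjugate `v · lev M · u` with prescribed determinant of `M` and `v ≠ 1`.
-/

set_option autoImplicit false

namespace Cfsg.Agent.H19.GTwo

open Matrix Cfsg.Lie Cfsg.Agent.H62.Covering.G2

variable {F : Type*} [Field F]

theorem hasRoots_top : HasRoots (⊤ : Subgroup ↥(G2 F)) := by
  constructor <;> exact fun _ => Subgroup.mem_top _

theorem exists_move' (x : O8 F) (ht : x 0 + x 7 = 0) (hn : nrm x = 0) (hx : x ≠ 0) :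
    ∃ k : ↥(G2 F), ap k (bas 6) = x := by
  obtain ⟨k, -, hk⟩ := hasRoots_top.exists_move x ht hn hx
  exact ⟨k, hk⟩

/-- The image of the base vector is neither proportional nor opposite to it. -/
def Skew (g : ↥(G2 F)) : Prop :=
  ap g (bas 6) 3 = 0 ∧ ∀ c : F, ap g (bas 6) ≠ c • bas 6

theorem pol_bas6 (f : O8 F) : pol (bas 6) f = -f 3 := by
  simp [pol]

theorem eigen_of_no_skew {g : ↥(G2 F)} (hg : ∀ k : ↥(G2 F), ¬ Skew (k * g * k⁻¹)) {v : O8 F}
    (ht : v 0 + v 7 = 0) (hn : nrm v = 0) (hp : pol v (ap g v) = 0) : ∃ c : F, ap g v = c • v := by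
  by_cases hv : v = 0
  · exact ⟨0, by simp [hv]⟩
  obtain ⟨k, hk⟩ := exists_move' v ht hn hv
  by_contra hne
  push Not at hne
  refine hg k⁻¹ ⟨?_, fun c hc => hne c ?_⟩
  · have e := ap_pol k⁻¹ v (ap g v)
    rw [hp, ← hk, ap_inv_ap, pol_bas6] at e
    rw [inv_inv, ap_mul, ap_mul]
    exact neg_eq_zero.mp e
  · rw [inv_inv, ap_mul, ap_mul, hk] at hc
    have := congrArg (ap k) hc
    rwa [ap_ap_inv, ap_smul, hk] at this

/-- An eigenvector forces fixed neighbours. -/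
theorem fix_of_no_skew {g : ↥(G2 F)} (hg : ∀ k : ↥(G2 F), ¬ Skew (k * g * k⁻¹)) {v : O8 F} {c : F}
    (ht : v 0 + v 7 = 0) (hn : nrm v = 0) (hv : v ≠ 0) (hgv : ap g v = c • v) :
    ∀ w : O8 F, w 0 + w 7 = 0 → zornMul v w = 0 → ap g w = w := by
  obtain ⟨k, hk⟩ := exists_move' v ht hn hv
  set g' := k⁻¹ * g * k with hg'
  have hns : ∀ l : ↥(G2 F), ¬ Skew (l * g' * l⁻¹) := fun l hl => hg (l * k⁻¹) (by
    rw [_root_.mul_inv_rev, inv_inv]; simpa [hg', mul_assoc] using hl)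
  have h6 : ap g' (bas 6) = c • bas 6 := by
    rw [hg', ap_mul, ap_mul, hk, hgv, ap_smul, ← hk, ap_inv_ap]
  obtain ⟨M, a₁, a₂, s₁, s₂, t, hdet, hdec⟩ := exists_stab_decomp h6
  have hc : c ≠ 0 := hdet ▸ ((Matrix.isUnit_iff_isUnit_det _).mp M.isUnit).ne_zero
  set N : Matrix (Fin 2) (Fin 2) F := (M : Matrix (Fin 2) (Fin 2) F)
  have h1 : ap g' (bas 1) = N 0 0 • bas 1 + N 1 0 • bas 2 + (-a₂ * c) • bas 6 := by
    rw [hdec, ap_mul, uHigh_bas1, ap_add, ap_smul, lev_bas1, lev_bas6, hdet, smul_smul]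
  have h2 : ap g' (bas 2) = N 0 1 • bas 1 + N 1 1 • bas 2 + (a₁ * c) • bas 6 := by
    rw [hdec, ap_mul, uHigh_bas2, ap_add, ap_smul, lev_bas2, lev_bas6, hdet, smul_smul]
  obtain ⟨c1, e1⟩ := eigen_of_no_skew hns (v := bas 1) (by simp) (by simp [nrm])
    (by rw [h1]; simp [pol])
  rw [h1] at e1
  have n10 := congrFun e1 2; have n16 := congrFun e1 6
  simp [hc] at n10 n16
  obtain ⟨c2, e2⟩ := eigen_of_no_skew hns (v := bas 2) (by simp) (by simp [nrm])
    (by rw [h2]; simp [pol])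
  rw [h2] at e2
  have n01 := congrFun e2 1; have n26 := congrFun e2 6
  simp [hc] at n01 n26
  rw [n10, n16] at h1
  rw [n01, n26] at h2
  obtain ⟨c3, e3⟩ := eigen_of_no_skew hns (v := bas 1 + bas 2) (by simp) (by simp [nrm])
    (by rw [ap_add, h1, h2]; simp [pol])
  rw [ap_add, h1, h2] at e3
  have m1 := congrFun e3 1; have m2 := congrFun e3 2
  simp at m1 m2
  obtain ⟨c4, e4⟩ := eigen_of_no_skew hns (v := bas 1 + bas 6) (by simp) (by simp [nrm])
    (by rw [ap_add, h1, h6]; simp [pol])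
  rw [ap_add, h1, h6] at e4
  have m3 := congrFun e4 1; have m4 := congrFun e4 6
  simp at m3 m4
  rw [det_fin_two] at hdet
  change N 0 0 * N 1 1 - N 0 1 * N 1 0 = c at hdet
  rw [n10, n01, m2, ← m1, mul_zero, sub_zero] at hdet
  have hc1 : c = 1 := by
    rw [m3, ← m4] at hdet
    exact mul_right_cancel₀ hc (by rw [one_mul]; exact hdet)
  have a00 : N 0 0 = 1 := by rw [m3, ← m4, hc1]
  have a11 : N 1 1 = 1 := by rw [m2, ← m1, a00]
  intro w hwt hw
  have hw' : zornMul (bas 6) (ap k⁻¹ w) = 0 := by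
    rw [← ap_inv_ap k (bas 6), hk, ← ap_zorn, hw, ap_zero]
  have hform := annihilator_form (by rw [ap_trace]; exact hwt) hw'
  set y := ap k⁻¹ w with hy
  have hy' : y = y 1 • bas 1 + y 2 • bas 2 + y 6 • bas 6 := by
    conv_lhs => rw [hform]
    funext i; fin_cases i <;> simp
  have hfix : ap g' y = y := by
    conv_lhs => rw [hy']
    rw [ap_add, ap_add, ap_smul, ap_smul, ap_smul, h1, h2, h6, a00, a11, hc1]
    conv_rhs => rw [hy']
    simp
  rw [hy, hg', ap_mul, ap_mul, ap_ap_inv] at hfix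
  exact ap_injective k⁻¹ hfix

variable [Fintype F]

/-- A non-zero isotropic trace-zero vector orthogonal to its image. -/
theorem exists_isotropic (g : ↥(G2 F)) :
    ∃ v : O8 F, v ≠ 0 ∧ v 0 + v 7 = 0 ∧ nrm v = 0 ∧ pol v (ap g v) = 0 := by
  classical
  let p := ringChar F
  haveI : CharP F p := ringChar.charP F
  haveI : Fact p.Prime := ⟨CharP.char_is_prime F p⟩
  let L : Fin 8 → MvPolynomial (Fin 7) F :=
    ![MvPolynomial.X 0, MvPolynomial.X 1, MvPolynomial.X 2, MvPolynomial.X 3, MvPolynomial.X 4,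
      MvPolynomial.X 5, MvPolynomial.X 6, -MvPolynomial.X 0]
  let G : Fin 8 → MvPolynomial (Fin 7) F := fun i => ∑ j, MvPolynomial.C (mat g i j) * L j
  let P : MvPolynomial (Fin 7) F := L 0 * L 7 - (L 1 * L 4 + L 2 * L 5 + L 3 * L 6)
  let Q : MvPolynomial (Fin 7) F :=
    L 0 * G 7 + L 7 * G 0 - (L 1 * G 4 + L 2 * G 5 + L 3 * G 6 + L 4 * G 1 + L 5 * G 2 + L 6 * G 3)
  have hL : ∀ i, (L i).IsHomogeneous 1 := fun i => by
    fin_cases i <;> simp only [L] <;>
      first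
        | exact MvPolynomial.isHomogeneous_X _ _
        | exact (MvPolynomial.isHomogeneous_X _ _).neg
  have hG : ∀ i, (G i).IsHomogeneous 1 := fun i =>
    MvPolynomial.IsHomogeneous.sum _ _ 1 fun j _ => (hL j).C_mul _
  have hP : P.totalDegree ≤ 2 := (((hL 0).mul (hL 7)).sub
    ((((hL 1).mul (hL 4)).add ((hL 2).mul (hL 5))).add ((hL 3).mul (hL 6)))).totalDegree_le
  have hQ : Q.totalDegree ≤ 2 := ((((hL 0).mul (hG 7)).add ((hL 7).mul (hG 0))).sub
    (((((((hL 1).mul (hG 4)).add ((hL 2).mul (hG 5))).add ((hL 3).mul (hG 6))).add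
      ((hL 4).mul (hG 1))).add ((hL 5).mul (hG 2))).add ((hL 6).mul (hG 3)))).totalDegree_le
  let vec : (Fin 7 → F) → O8 F := fun y => ![y 0, y 1, y 2, y 3, y 4, y 5, y 6, -y 0]
  have eL : ∀ y i, MvPolynomial.eval y (L i) = vec y i := fun y i => by
    fin_cases i <;> simp [L, vec]
  have eG : ∀ y i, MvPolynomial.eval y (G i) = ap g (vec y) i := fun y i => by
    simp only [G, map_sum, map_mul, MvPolynomial.eval_C, eL]
    rfl
  have eP : ∀ y, MvPolynomial.eval y P = nrm (vec y) := fun y => by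
    simp only [P, map_sub, map_add, map_mul, eL, nrm]
  have eQ : ∀ y, MvPolynomial.eval y Q = pol (vec y) (ap g (vec y)) := fun y => by
    simp only [Q, map_sub, map_add, map_mul, eL, eG, pol]
  have hdvd := char_dvd_card_solutions_of_add_lt p (f₁ := P) (f₂ := Q) (by rw [Fintype.card_fin]; omega)
  obtain ⟨y, hy⟩ : ∃ y : {x : Fin 7 → F // MvPolynomial.eval x P = 0 ∧ MvPolynomial.eval x Q = 0},
      y.1 ≠ 0 := by
    by_contra hcon
    push Not at hcon
    have hle : Fintype.card {x : Fin 7 → F // MvPolynomial.eval x P = 0 ∧ MvPolynomial.eval x Q = 0} ≤ 1 :=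
      Fintype.card_le_one_iff.mpr fun a b => Subtype.ext ((hcon a).trans (hcon b).symm)
    have hpos : 0 < Fintype.card {x : Fin 7 → F // MvPolynomial.eval x P = 0 ∧ MvPolynomial.eval x Q = 0} :=
      Fintype.card_pos_iff.mpr ⟨⟨0, by
        rw [eP, eQ, show vec 0 = 0 by funext i; fin_cases i <;> simp [vec]]
        simp [nrm, pol]⟩⟩
    have := Nat.le_of_dvd hpos hdvd
    have := (Fact.out : p.Prime).two_le
    omega
  refine ⟨vec y.1, fun h => hy ?_, by simp [vec], (eP _).symm.trans y.2.1, (eQ _).symm.trans y.2.2⟩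
  have hi := congrFun h
  funext i
  fin_cases i
  · simpa [vec] using hi 0
  · simpa [vec] using hi 1
  · simpa [vec] using hi 2
  · simpa [vec] using hi 3
  · simpa [vec] using hi 4
  · simpa [vec] using hi 5
  · simpa [vec] using hi 6

theorem exists_skew {g : ↥(G2 F)} (hg : g ≠ 1) : ∃ k : ↥(G2 F), Skew (k * g * k⁻¹) := by
  by_contra hcon
  push Not at hcon
  obtain ⟨v, hv, ht, hn, hp⟩ := exists_isotropic g
  obtain ⟨c, hc⟩ := eigen_of_no_skew hcon ht hn hp
  obtain ⟨k, hk⟩ := exists_move' v ht hn hv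
  set g' := k⁻¹ * g * k with hg'
  have hns : ∀ l : ↥(G2 F), ¬ Skew (l * g' * l⁻¹) := fun l hl => hcon (l * k⁻¹) (by
    rw [_root_.mul_inv_rev, inv_inv]; simpa [hg', mul_assoc] using hl)
  have h6 : ap g' (bas 6) = c • bas 6 := by
    rw [hg', ap_mul, ap_mul, hk, hc, ap_smul, ← hk, ap_inv_ap]
  have z : ∀ i j : Fin 8, zornMul (bas i) (bas j) = (0 : O8 F) → i ≠ 0 → i ≠ 7 → j ≠ 0 → j ≠ 7 →
      ∀ c : F, ap g' (bas i) = c • bas i → ap g' (bas j) = bas j := fun i j e i0 i7 j0 j7 c hi => by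
    refine fix_of_no_skew hns ?_ ?_ ?_ hi _ ?_ e
    · simp [Ne.symm i0, Ne.symm i7]
    · fin_cases i <;> simp [nrm] at i0 i7 ⊢
    · intro h; simpa using congrFun h i
    · simp [Ne.symm j0, Ne.symm j7]
  have f1 := z 6 1 (by funext j; fin_cases j <;> simp [zornMul, dot3, cross3]) (by decide) (by decide)
    (by decide) (by decide) c h6
  have f2 := z 6 2 (by funext j; fin_cases j <;> simp [zornMul, dot3, cross3]) (by decide) (by decide)
    (by decide) (by decide) c h6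
  have f5 := z 1 5 (by funext j; fin_cases j <;> simp [zornMul, dot3, cross3]) (by decide) (by decide)
    (by decide) (by decide) 1 (by rw [one_smul]; exact f1)
  have f6 := z 1 6 (by funext j; fin_cases j <;> simp [zornMul, dot3, cross3]) (by decide) (by decide)
    (by decide) (by decide) 1 (by rw [one_smul]; exact f1)
  have f3 := z 5 3 (by funext j; fin_cases j <;> simp [zornMul, dot3, cross3]) (by decide) (by decide)
    (by decide) (by decide) 1 (by rw [one_smul]; exact f5)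
  have h1 := eq_one_of_fix f1 f2 f3 f6
  apply hg
  rw [hg'] at h1
  calc g = k * (k⁻¹ * g * k) * k⁻¹ := by group
  _ = 1 := by rw [h1]; group

omit [Fintype F] in
theorem Skew.adjust {g : ↥(G2 F)} (hg : Skew g) (δ : F) :
    ∃ k : ↥(G2 F), Skew (k * g * k⁻¹) ∧ ap (k * g * k⁻¹) (bas 6) 6 = δ := by
  obtain ⟨h3, hne⟩ := hg
  suffices hk : ∃ k : ↥(G2 F), ap k (bas 6) = bas 6 ∧ ap k (ap g (bas 6)) 6 = δ by
    obtain ⟨k, hk6, hk⟩ := hk
    have e : ap (k * g * k⁻¹) (bas 6) = ap k (ap g (bas 6)) := by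
      rw [ap_mul, ap_mul, show ap k⁻¹ (bas 6) = bas 6 by
        conv_lhs => rw [← hk6]
        rw [ap_inv_ap]]
    refine ⟨k, ⟨?_, fun c hc => hne c (ap_injective k ?_)⟩, by rw [e]; exact hk⟩
    · have := ap_pol k (bas 6) (ap g (bas 6))
      rw [hk6, pol_bas6, pol_bas6, h3, neg_zero] at this
      rw [e]; exact neg_eq_zero.mp this
    · rw [← e, hc, ap_smul, hk6]
  have ht : ap g (bas 6) 0 + ap g (bas 6) 7 = 0 := by rw [ap_trace]; simp
  have hn : nrm (ap g (bas 6)) = 0 := by rw [ap_nrm]; simp [nrm]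
  generalize ap g (bas 6) = f at h3 hne ht hn
  by_cases h2 : f 2 = 0
  swap
  · exact ⟨phi ((δ - f 6) / f 2) 0 0, by funext i; fin_cases i <;> simp [phiMap],
      by simp [phiMap, div_mul_cancel₀ _ h2]⟩
  by_cases h1 : f 1 = 0
  swap
  · exact ⟨phi 0 (-((δ - f 6) / f 1)) 0, by funext i; fin_cases i <;> simp [phiMap],
      by simp [phiMap, div_mul_cancel₀ _ h1]⟩
  by_cases h4 : f 4 = 0
  swap
  · exact ⟨e13 ((f 6 - δ) / f 4), by funext i; fin_cases i <;> simp,
      by simp [div_mul_cancel₀ _ h4]⟩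
  by_cases h5 : f 5 = 0
  swap
  · exact ⟨e23 ((f 6 - δ) / f 5), by funext i; fin_cases i <;> simp,
      by simp [div_mul_cancel₀ _ h5]⟩
  have h07 : f 7 = -f 0 := by linear_combination ht
  have h0 : f 0 = 0 := by
    simp only [nrm, h1, h2, h3, h4, h5, h07] at hn
    exact pow_eq_zero_iff two_ne_zero |>.1 (show f 0 ^ 2 = 0 by linear_combination -hn)
  rw [h0, neg_zero] at h07
  exact absurd (funext fun i => by fin_cases i <;> simp [h0, h07, h1, h2, h3, h4, h5]) (hne (f 6))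

end Cfsg.Agent.H19.GTwo
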