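import Cfsg.Agent.H19.GTwo.Transit
import Cfsg.Agent.H93.G2Bridge

/-!
The embedding of the Chevalley group of type G₂ in `G₂(F)` is onto.
-/

set_option autoImplicit false

namespace Cfsg.Agent.H19.GTwo

open Matrix Cfsg.Lie Cfsg.Agent.H62.Covering.G2
open Cfsg.Agent.H93.G2Bridge

variable {F : Type*} [Field F]

theorem ap_tau {r : ℕ} (hr : r < 12) (a : F) (x : O8 F) : ap (tau F r a) x = xZ r a *ᵥ x := by
  rw [ap]
  show ((tau F r a : GL (Fin 8) F) : Matrix (Fin 8) (Fin 8) F) *ᵥ x = _
  rw [tau_val hr]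

set_option maxHeartbeats 4000000 in
theorem exists_equiv (F : Type*) [Field F] [Fintype F] (h3 : ∃ a : F, a ≠ 0 ∧ a ≠ 1) :
    Nonempty (↥(chevG2.group F) ≃* ↥(G2 F)) := by
  obtain ⟨ψ, hψ, hτ⟩ := exists_hom F h3
  have mem : ∀ r < 12, ∀ t : F, tau F r t ∈ ψ.range := fun r hr t => hτ r hr t
  have key : ∀ r < 12, ∀ (t : F) (g : ↥(G2 F)), (∀ x, xZ r t *ᵥ x = ap g x) → g ∈ ψ.range :=
    fun r hr t g e => by
      rw [show g = tau F r t from ap_ext fun x => by rw [ap_tau hr, e]]
      exact mem r hr t
  have hH : HasRoots ψ.range := by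
    constructor <;> intro t
    · refine key 7 (by norm_num) t _ fun x => ?_
      funext i; simp only [xZ, mulVec_eval _ _ _ _ (xS_lt 7 (by norm_num))]
      fin_cases i <;>
        simp [xS, aS, bS, aTab, bTab, H47.SPoly.one,
          H47.SPoly.shift_eq, List.range_succ, Fin.ofNat, phiMap] <;> ring
    · refine key 8 (by norm_num) (-t) _ fun x => ?_
      funext i; simp only [xZ, mulVec_eval _ _ _ _ (xS_lt 8 (by norm_num))]
      fin_cases i <;>
        simp [xS, aS, bS, aTab, bTab, H47.SPoly.one,
          H47.SPoly.shift_eq, List.range_succ, Fin.ofNat, phiMap] <;> ring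
    · refine key 2 (by norm_num) (-t) _ fun x => ?_
      funext i; simp only [xZ, mulVec_eval _ _ _ _ (xS_lt 2 (by norm_num))]
      fin_cases i <;>
        simp [xS, aS, bS, aTab, bTab, H47.SPoly.one,
          H47.SPoly.shift_eq, List.range_succ, Fin.ofNat, phiMap] <;> ring
    · refine key 4 (by norm_num) (-t) _ fun x => ?_
      funext i; simp only [xZ, mulVec_eval _ _ _ _ (xS_lt 4 (by norm_num))]
      fin_cases i <;>
        simp [xS, aS, bS, aTab, bTab, H47.SPoly.one,
          H47.SPoly.shift_eq, List.range_succ, Fin.ofNat, psiMap] <;> ring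
    · refine key 3 (by norm_num) t _ fun x => ?_
      funext i; simp only [xZ, mulVec_eval _ _ _ _ (xS_lt 3 (by norm_num))]
      fin_cases i <;>
        simp [xS, aS, bS, aTab, bTab, H47.SPoly.one,
          H47.SPoly.shift_eq, List.range_succ, Fin.ofNat, psiMap] <;> ring
    · refine key 9 (by norm_num) t _ fun x => ?_
      funext i; simp only [xZ, mulVec_eval _ _ _ _ (xS_lt 9 (by norm_num))]
      fin_cases i <;>
        simp [xS, aS, bS, aTab, bTab, H47.SPoly.one,
          H47.SPoly.shift_eq, List.range_succ, Fin.ofNat, psiMap] <;> ring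
    · refine key 5 (by norm_num) (-t) _ fun x => ?_
      funext i; simp only [xZ, mulVec_eval _ _ _ _ (xS_lt 5 (by norm_num))]
      fin_cases i <;>
        simp [xS, aS, bS, aTab, bTab, H47.SPoly.one,
          H47.SPoly.shift_eq, List.range_succ, Fin.ofNat] <;> ring
    · refine key 6 (by norm_num) (-t) _ fun x => ?_
      funext i; simp only [xZ, mulVec_eval _ _ _ _ (xS_lt 6 (by norm_num))]
      fin_cases i <;>
        simp [xS, aS, bS, aTab, bTab, H47.SPoly.one,
          H47.SPoly.shift_eq, List.range_succ, Fin.ofNat] <;> ring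
    · refine key 10 (by norm_num) (-t) _ fun x => ?_
      funext i; simp only [xZ, mulVec_eval _ _ _ _ (xS_lt 10 (by norm_num))]
      fin_cases i <;>
        simp [xS, aS, bS, aTab, bTab, H47.SPoly.one,
          H47.SPoly.shift_eq, List.range_succ, Fin.ofNat] <;> ring
    · refine key 11 (by norm_num) t _ fun x => ?_
      funext i; simp only [xZ, mulVec_eval _ _ _ _ (xS_lt 11 (by norm_num))]
      fin_cases i <;>
        simp [xS, aS, bS, aTab, bTab, H47.SPoly.one,
          H47.SPoly.shift_eq, List.range_succ, Fin.ofNat] <;> ring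
    · refine key 1 (by norm_num) (-t) _ fun x => ?_
      funext i; simp only [xZ, mulVec_eval _ _ _ _ (xS_lt 1 (by norm_num))]
      fin_cases i <;>
        simp [xS, aS, bS, aTab, bTab, H47.SPoly.one,
          H47.SPoly.shift_eq, List.range_succ, Fin.ofNat] <;> ring
    · refine key 0 (by norm_num) t _ fun x => ?_
      funext i; simp only [xZ, mulVec_eval _ _ _ _ (xS_lt 0 (by norm_num))]
      fin_cases i <;>
        simp [xS, aS, bS, aTab, bTab, H47.SPoly.one,
          H47.SPoly.shift_eq, List.range_succ, Fin.ofNat] <;> ring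
  exact ⟨MulEquiv.ofBijective ψ ⟨hψ, MonoidHom.range_eq_top.mp hH.eq_top⟩⟩

end Cfsg.Agent.H19.GTwo
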