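import Cfsg.Agent.H62.Covering.G2

/-!
Root and Levi elements of `G₂(F)` in Zorn's model, as maps of coordinates. The Levi factor `GL₂` is the
one of the stabiliser of the singular line of the coordinate `6`.
-/

set_option autoImplicit false

namespace Cfsg.Agent.H19.GTwo

open Matrix Cfsg.Lie Cfsg.Agent.H62.Covering.G2

variable {F : Type*} [Field F]

/-- Octonion coordinates. -/
abbrev O8 (F : Type*) := Fin 8 → F

/-- The action. -/
def ap (g : ↥(G2 F)) (x : O8 F) : O8 F := mat g *ᵥ x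

theorem ap_mul (g h : ↥(G2 F)) (x : O8 F) : ap (g * h) x = ap g (ap h x) := by
  simp [ap, mat_mul, mulVec_mulVec]

@[simp] theorem ap_one (x : O8 F) : ap (1 : ↥(G2 F)) x = x := one_mulVec x

theorem ap_inv_ap (g : ↥(G2 F)) (x : O8 F) : ap g⁻¹ (ap g x) = x := mat_inv_mulVec g x

theorem ap_ap_inv (g : ↥(G2 F)) (x : O8 F) : ap g (ap g⁻¹ x) = x := mat_mulVec_inv g x

theorem ap_injective (g : ↥(G2 F)) : Function.Injective (ap g) := fun x y h => by
  rw [← ap_inv_ap g x, h, ap_inv_ap]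

theorem ap_ext {g h : ↥(G2 F)} (H : ∀ x, ap g x = ap h x) : g = h :=
  Subtype.ext (Units.ext (Matrix.ext_iff_mulVec.mpr H))

theorem ap_add (g : ↥(G2 F)) (x y : O8 F) : ap g (x + y) = ap g x + ap g y := mulVec_add _ _ _

theorem ap_smul (g : ↥(G2 F)) (c : F) (x : O8 F) : ap g (c • x) = c • ap g x := mulVec_smul _ _ _

@[simp] theorem ap_zero (g : ↥(G2 F)) : ap g (0 : O8 F) = 0 := mulVec_zero _

theorem ap_zorn (g : ↥(G2 F)) (x y : O8 F) : ap g (zornMul x y) = zornMul (ap g x) (ap g y) :=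
  map_mul' g x y

theorem ap_nrm (g : ↥(G2 F)) (x : O8 F) : nrm (ap g x) = nrm x := map_nrm g x

theorem ap_trace (g : ↥(G2 F)) (x : O8 F) : ap g x 0 + ap g x 7 = x 0 + x 7 := by
  have h := map_nrm g (x + (1 : F) • Cfsg.Agent.H62.Covering.G2.one)
  rw [mulVec_add, one_smul, map_one'] at h
  have e := nrm_add_one x 1
  have e' := nrm_add_one (mat g *ᵥ x) 1
  rw [one_smul] at e e'
  simp only [ap]
  linear_combination e - e' + h - map_nrm g x

theorem ap_pol (g : ↥(G2 F)) (x y : O8 F) : pol (ap g x) (ap g y) = pol x y := by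
  have h := nrm_add (ap g x) (ap g y)
  rw [← ap_add, ap_nrm, ap_nrm, ap_nrm, nrm_add x y] at h
  linear_combination -h

/-- The vector of a list of coordinates. -/
abbrev bas (i : Fin 8) : O8 F := Pi.single i 1

@[simp] theorem ap_phi (a₁ a₂ a₃ : F) (x : O8 F) : ap (phi a₁ a₂ a₃) x = phiMap a₁ a₂ a₃ x :=
  mk_mulVec ..

@[simp] theorem ap_swap (x : O8 F) : ap swap x = swapMap x := mk_mulVec ..

/-- The opposite shear. -/
def psiMap (a₁ a₂ a₃ : F) : O8 F →ₗ[F] O8 F where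
  toFun x :=
    ![x 0 - (a₁ * x 1 + a₂ * x 2 + a₃ * x 3),
      x 1 + (a₂ * x 6 - a₃ * x 5), x 2 + (a₃ * x 4 - a₁ * x 6), x 3 + (a₁ * x 5 - a₂ * x 4),
      x 4 + (x 0 - x 7 - (a₁ * x 1 + a₂ * x 2 + a₃ * x 3)) * a₁,
      x 5 + (x 0 - x 7 - (a₁ * x 1 + a₂ * x 2 + a₃ * x 3)) * a₂,
      x 6 + (x 0 - x 7 - (a₁ * x 1 + a₂ * x 2 + a₃ * x 3)) * a₃,
      x 7 + (a₁ * x 1 + a₂ * x 2 + a₃ * x 3)]
  map_add' x y := by funext i; fin_cases i <;> simp <;> ring
  map_smul' c x := by funext i; fin_cases i <;> simp <;> ring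

/-- The opposite shear as an automorphism. -/
def psi (a₁ a₂ a₃ : F) : ↥(G2 F) :=
  mk (psiMap a₁ a₂ a₃) (psiMap (-a₁) (-a₂) (-a₃))
    (fun x => by funext i; fin_cases i <;> simp [psiMap] <;> ring)
    (fun x y => by funext i; fin_cases i <;> simp [psiMap, zornMul, dot3, cross3] <;> ring)

@[simp] theorem ap_psi (a₁ a₂ a₃ : F) (x : O8 F) : ap (psi a₁ a₂ a₃) x = psiMap a₁ a₂ a₃ x :=
  mk_mulVec ..

/-- The map of the Levi element `diag(N, det N⁻¹)`. -/
def levMap (N : Matrix (Fin 2) (Fin 2) F) : O8 F →ₗ[F] O8 F where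
  toFun x :=
    ![x 0, N 0 0 * x 1 + N 0 1 * x 2, N 1 0 * x 1 + N 1 1 * x 2, N.det⁻¹ * x 3,
      N.det⁻¹ * (N 1 1 * x 4 - N 1 0 * x 5), N.det⁻¹ * (N 0 0 * x 5 - N 0 1 * x 4), N.det * x 6, x 7]
  map_add' x y := by funext i; fin_cases i <;> simp <;> ring
  map_smul' c x := by funext i; fin_cases i <;> simp <;> ring

theorem levMap_mul (M N : Matrix (Fin 2) (Fin 2) F) (x : O8 F) :
    levMap M (levMap N x) = levMap (M * N) x := by
  have hd : (M * N).det⁻¹ = M.det⁻¹ * N.det⁻¹ := by rw [det_mul, mul_inv]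
  funext i
  fin_cases i <;> simp [levMap, hd, Matrix.mul_apply, Fin.sum_univ_two] <;> ring

theorem levMap_one (x : O8 F) : levMap (1 : Matrix (Fin 2) (Fin 2) F) x = x := by
  funext i; fin_cases i <;> simp [levMap]

theorem levMap_zorn (N : Matrix (Fin 2) (Fin 2) F) (h : N.det ≠ 0) (x y : O8 F) :
    levMap N (zornMul x y) = zornMul (levMap N x) (levMap N y) := by
  have hD : N 0 0 * N 1 1 - N 0 1 * N 1 0 = N.det := (det_fin_two N).symm
  have hi : N.det⁻¹ * N.det = 1 := inv_mul_cancel₀ h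
  funext i
  fin_cases i <;> simp [levMap, zornMul, dot3, cross3]
  all_goals generalize N.det⁻¹ = e at hi
  all_goals generalize N.det = D at hD hi
  all_goals subst hD
  all_goals grind

/-- The Levi element as an automorphism. -/
def levFun (M : GL (Fin 2) F) : ↥(G2 F) :=
  mk (levMap (M : Matrix (Fin 2) (Fin 2) F)) (levMap ((M⁻¹ : GL (Fin 2) F) : Matrix (Fin 2) (Fin 2) F))
    (fun x => by rw [levMap_mul, ← Units.val_mul, mul_inv_cancel, Units.val_one, levMap_one])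
    (fun x y => levMap_zorn _ ((Matrix.isUnit_iff_isUnit_det _).mp M.isUnit).ne_zero x y)

theorem ap_levFun (M : GL (Fin 2) F) (x : O8 F) :
    ap (levFun M) x = levMap (M : Matrix (Fin 2) (Fin 2) F) x :=
  mk_mulVec ..

/-- The Levi embedding. -/
def lev : GL (Fin 2) F →* ↥(G2 F) :=
  MonoidHom.mk' levFun fun M N => ap_ext fun x => by
    rw [ap_mul, ap_levFun, ap_levFun, ap_levFun, levMap_mul, Units.val_mul]

@[simp] theorem ap_lev (M : GL (Fin 2) F) (x : O8 F) :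
    ap (lev M) x = levMap (M : Matrix (Fin 2) (Fin 2) F) x := ap_levFun M x

/-- `E₁₂(t)`. -/
def e12 (t : F) : ↥(G2 F) := trans 1 0 0 0 0 (-t)
/-- `E₂₁(t)`. -/
def e21 (t : F) : ↥(G2 F) := trans 0 1 0 0 0 t
/-- `E₁₃(t)`. -/
def e13 (t : F) : ↥(G2 F) := trans 1 0 0 0 t 0
/-- `E₂₃(t)`. -/
def e23 (t : F) : ↥(G2 F) := trans 0 1 0 (-t) 0 0
/-- `E₃₁(t)`. -/
def e31 (t : F) : ↥(G2 F) := trans 0 0 1 0 (-t) 0
/-- `E₃₂(t)`. -/
def e32 (t : F) : ↥(G2 F) := trans 0 0 1 t 0 0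

theorem ap_trans (u₁ u₂ u₃ z₁ z₂ z₃ : F) (x : O8 F) :
    ap (trans u₁ u₂ u₃ z₁ z₂ z₃) x = transMap u₁ u₂ u₃ z₁ z₂ z₃ x := mk_mulVec ..

@[simp] theorem ap_e12 (t : F) (x : O8 F) :
    ap (e12 t) x = ![x 0, x 1 + t * x 2, x 2, x 3, x 4, x 5 - t * x 4, x 6, x 7] := by
  rw [e12, ap_trans]; funext i; fin_cases i <;> simp [transMap] <;> ring

@[simp] theorem ap_e21 (t : F) (x : O8 F) :
    ap (e21 t) x = ![x 0, x 1, x 2 + t * x 1, x 3, x 4 - t * x 5, x 5, x 6, x 7] := by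
  rw [e21, ap_trans]; funext i; fin_cases i <;> simp [transMap] <;> ring

@[simp] theorem ap_e13 (t : F) (x : O8 F) :
    ap (e13 t) x = ![x 0, x 1 + t * x 3, x 2, x 3, x 4, x 5, x 6 - t * x 4, x 7] := by
  rw [e13, ap_trans]; funext i; fin_cases i <;> simp [transMap] <;> ring

@[simp] theorem ap_e23 (t : F) (x : O8 F) :
    ap (e23 t) x = ![x 0, x 1, x 2 + t * x 3, x 3, x 4, x 5, x 6 - t * x 5, x 7] := by
  rw [e23, ap_trans]; funext i; fin_cases i <;> simp [transMap] <;> ring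

@[simp] theorem ap_e31 (t : F) (x : O8 F) :
    ap (e31 t) x = ![x 0, x 1, x 2, x 3 + t * x 1, x 4 - t * x 6, x 5, x 6, x 7] := by
  rw [e31, ap_trans]; funext i; fin_cases i <;> simp [transMap] <;> ring

@[simp] theorem ap_e32 (t : F) (x : O8 F) :
    ap (e32 t) x = ![x 0, x 1, x 2, x 3 + t * x 2, x 4, x 5 - t * x 6, x 6, x 7] := by
  rw [e32, ap_trans]; funext i; fin_cases i <;> simp [transMap] <;> ring

end Cfsg.Agent.H19.GTwo
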