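import Cfsg.Agent.H19.GTwo.Maps

/-!
Transitivity on singular trace-zero vectors and the stabiliser of the line of the coordinate `6`.
-/

set_option autoImplicit false

namespace Cfsg.Agent.H19.GTwo

open Matrix Cfsg.Lie Cfsg.Agent.H62.Covering.G2

variable {F : Type*} [Field F]

/-- A subgroup containing the root elements. -/
structure HasRoots (H : Subgroup ↥(G2 F)) : Prop where
  phi1 : ∀ t : F, phi t 0 0 ∈ H
  phi2 : ∀ t : F, phi 0 t 0 ∈ H
  phi3 : ∀ t : F, phi 0 0 t ∈ H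
  psi1 : ∀ t : F, psi t 0 0 ∈ H
  psi2 : ∀ t : F, psi 0 t 0 ∈ H
  psi3 : ∀ t : F, psi 0 0 t ∈ H
  r12 : ∀ t : F, e12 t ∈ H
  r21 : ∀ t : F, e21 t ∈ H
  r13 : ∀ t : F, e13 t ∈ H
  r23 : ∀ t : F, e23 t ∈ H
  r31 : ∀ t : F, e31 t ∈ H
  r32 : ∀ t : F, e32 t ∈ H

variable {H : Subgroup ↥(G2 F)}

theorem HasRoots.exists_levMap (hH : HasRoots H) (N : Matrix (Fin 2) (Fin 2) F) (h : N.det ≠ 0) :
    ∃ k ∈ H, ∀ x, ap k x = levMap N x := by
  have hmul : ∀ A B : Matrix (Fin 2) (Fin 2) F, (∃ k ∈ H, ∀ x, ap k x = levMap A x) →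
      (∃ k ∈ H, ∀ x, ap k x = levMap B x) → ∃ k ∈ H, ∀ x, ap k x = levMap (A * B) x := by
    rintro A B ⟨k, hk, hA⟩ ⟨l, hl, hB⟩
    exact ⟨k * l, mul_mem hk hl, fun x => by rw [ap_mul, hB, hA, levMap_mul]⟩
  have hU : ∀ t : F, ∃ k ∈ H, ∀ x, ap k x = levMap !![1, t; 0, 1] x := fun t =>
    ⟨e12 t, hH.r12 t, fun x => by funext i; fin_cases i <;> simp [levMap, det_fin_two]⟩
  have hL : ∀ t : F, ∃ k ∈ H, ∀ x, ap k x = levMap !![1, 0; t, 1] x := fun t =>
    ⟨e21 t, hH.r21 t, fun x => by funext i; fin_cases i <;> simp [levMap, det_fin_two] <;> ring⟩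
  have hD : ∀ D : F, D ≠ 0 → ∃ k ∈ H, ∀ x, ap k x = levMap !![1, 0; 0, D] x := fun D hD =>
    ⟨e23 D * (e32 (-D⁻¹) * (e23 D * (e23 (-1) * (e32 1 * e23 (-1))))),
      mul_mem (hH.r23 _) (mul_mem (hH.r32 _) (mul_mem (hH.r23 _) (mul_mem (hH.r23 _)
        (mul_mem (hH.r32 _) (hH.r23 _))))),
      fun x => by funext i; fin_cases i <;> simp [ap_mul, levMap, det_fin_two] <;> field_simp <;> ring⟩
  have hS : ∀ u : F, u ≠ 0 → ∃ k ∈ H, ∀ x, ap k x = levMap !![u, 0; 0, u⁻¹] x := fun u hu =>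
    ⟨e12 u * (e21 (-u⁻¹) * (e12 u * (e12 (-1) * (e21 1 * e12 (-1))))),
      mul_mem (hH.r12 _) (mul_mem (hH.r21 _) (mul_mem (hH.r12 _) (mul_mem (hH.r12 _)
        (mul_mem (hH.r21 _) (hH.r12 _))))),
      fun x => by funext i; fin_cases i <;> simp [ap_mul, levMap, det_fin_two] <;> field_simp <;> ring⟩
  have main : ∀ N : Matrix (Fin 2) (Fin 2) F, N.det ≠ 0 → N 0 0 ≠ 0 →
      ∃ k ∈ H, ∀ x, ap k x = levMap N x := fun N h h0 => by
    have e : N = !![1, 0; N 1 0 / N 0 0, 1] * (!![N 0 0, 0; 0, (N 0 0)⁻¹] * !![1, 0; 0, N.det]) *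
        !![1, N 0 1 / N 0 0; 0, 1] := by
      ext i j
      fin_cases i <;> fin_cases j <;> simp [det_fin_two] <;> field_simp <;> ring
    rw [e]
    exact hmul _ _ (hmul _ _ (hL _) (hmul _ _ (hS _ h0) (hD _ h))) (hU _)
  by_cases h0 : N 0 0 = 0
  · have h10 : N 1 0 ≠ 0 := by
      intro h1; apply h; simp [det_fin_two, h0, h1]
    obtain ⟨k, hk, hA⟩ := hmul _ _ (hU (-1)) (main (!![1, 1; 0, 1] * N)
      (by rw [det_mul, det_fin_two !![1, 1; 0, 1]]; simpa using h)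
      (by simp [Matrix.mul_apply, Fin.sum_univ_two, h0, h10]))
    refine ⟨k, hk, fun x => ?_⟩
    rw [hA x, ← Matrix.mul_assoc, show (!![1, -1; 0, 1] : Matrix (Fin 2) (Fin 2) F) * !![1, 1; 0, 1] = 1 by
      ext i j; fin_cases i <;> fin_cases j <;> simp [Matrix.mul_apply, Fin.sum_univ_two], one_mul]
  · exact main N h h0

theorem HasRoots.lev_mem (hH : HasRoots H) (M : GL (Fin 2) F) : lev M ∈ H := by
  obtain ⟨k, hk, hA⟩ := hH.exists_levMap M ((Matrix.isUnit_iff_isUnit_det _).mp M.isUnit).ne_zero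
  rwa [show lev M = k from ap_ext fun x => by rw [hA, ap_lev]]

theorem HasRoots.phi_mem (hH : HasRoots H) (a₁ a₂ : F) : phi a₁ a₂ 0 ∈ H := by
  by_cases h : a₁ = 0
  · subst h; exact hH.phi2 a₂
  · obtain ⟨k, hk, hA⟩ := hH.exists_levMap !![a₁, 0; a₂, 1] (by simp [det_fin_two, h])
    have e : phi a₁ a₂ 0 = k * phi 1 0 0 * k⁻¹ := by
      rw [eq_mul_inv_iff_mul_eq]
      refine ap_ext fun x => ?_
      simp only [ap_mul, hA, ap_phi]
      funext i
      fin_cases i <;> simp [phiMap, levMap, det_fin_two] <;> field_simp <;> ring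
    rw [e]
    exact mul_mem (mul_mem hk (hH.phi1 1)) (inv_mem hk)

theorem HasRoots.psi_mem (hH : HasRoots H) (c₁ c₂ : F) : psi c₁ c₂ 0 ∈ H := by
  by_cases h : c₁ = 0
  · subst h; exact hH.psi2 c₂
  · obtain ⟨k, hk, hA⟩ := hH.exists_levMap !![c₁⁻¹, -c₂ / c₁; 0, 1] (by simp [det_fin_two, h])
    have e : psi c₁ c₂ 0 = k * psi 1 0 0 * k⁻¹ := by
      rw [eq_mul_inv_iff_mul_eq]
      refine ap_ext fun x => ?_
      simp only [ap_mul, hA, ap_psi]
      funext i
      fin_cases i <;> simp [psiMap, levMap, det_fin_two] <;> field_simp <;> ring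
    rw [e]
    exact mul_mem (mul_mem hk (hH.psi1 1)) (inv_mem hk)

/-- The element of the opposite unipotent radical with the given coordinates. -/
def vLow (c₁ c₂ p r τ : F) : ↥(G2 F) := psi c₁ c₂ 0 * (e31 p * (e32 r * phi 0 0 τ))

theorem HasRoots.vLow_mem (hH : HasRoots H) (c₁ c₂ p r τ : F) : vLow c₁ c₂ p r τ ∈ H :=
  mul_mem (hH.psi_mem _ _) (mul_mem (hH.r31 _) (mul_mem (hH.r32 _) (hH.phi3 _)))

theorem ap_vLow_bas (c₁ c₂ p r τ : F) : ap (vLow c₁ c₂ p r τ) (bas 6) =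
    ![-τ, c₂, -c₁, -τ ^ 2 - c₁ * r + c₂ * p, -p - 2 * τ * c₁, -r - 2 * τ * c₂, 1, τ] := by
  funext i
  fin_cases i <;> simp [vLow, ap_mul, psiMap, phiMap] <;> ring

/-- A singular trace-zero vector with last coordinate one comes from the opposite radical. -/
theorem exists_vLow (x : O8 F) (ht : x 0 + x 7 = 0) (hn : nrm x = 0) (h6 : x 6 = 1) :
    ∃ c₁ c₂ p r τ : F, ap (vLow c₁ c₂ p r τ) (bas 6) = x := by
  refine ⟨-x 2, x 1, -x 4 - 2 * (-x 0) * (-x 2), -x 5 - 2 * (-x 0) * x 1, -x 0, ?_⟩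
  rw [ap_vLow_bas]
  simp only [nrm, h6] at hn
  funext i
  fin_cases i <;> simp [h6]
  all_goals first
    | linear_combination ht
    | linear_combination -ht
    | linear_combination hn - x 0 * ht
    | linear_combination -hn + x 0 * ht

theorem levMap_bas (N : Matrix (Fin 2) (Fin 2) F) : levMap N (bas 6) = N.det • bas 6 := by
  funext i; fin_cases i <;> simp [levMap]

/-- Every singular trace-zero vector is the image of the base vector. -/
theorem HasRoots.exists_move (hH : HasRoots H) (x : O8 F) (ht : x 0 + x 7 = 0) (hn : nrm x = 0)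
    (hx : x ≠ 0) : ∃ k ∈ H, ap k (bas 6) = x := by
  suffices hk : ∃ k ∈ H, ap k x 6 ≠ 0 by
    obtain ⟨k, hk, h6⟩ := hk
    obtain ⟨c₁, c₂, p, r, τ, hv⟩ := exists_vLow ((ap k x 6)⁻¹ • ap k x)
      (by simp only [Pi.smul_apply, smul_eq_mul, ← mul_add, ap_trace, ht, mul_zero])
      (by
        have e : ∀ (c : F) (y : O8 F), nrm (c • y) = c ^ 2 * nrm y := fun c y => by simp [nrm]; ring
        rw [e, ap_nrm, hn, mul_zero])
      (by simp [h6])
    obtain ⟨l, hl, hA⟩ := hH.exists_levMap !![1, 0; 0, ap k x 6] (by simp [det_fin_two, h6])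
    refine ⟨k⁻¹ * (vLow c₁ c₂ p r τ * l), mul_mem (inv_mem hk) (mul_mem (hH.vLow_mem _ _ _ _ _) hl), ?_⟩
    rw [ap_mul, ap_mul, hA, levMap_bas, ap_smul, hv, smul_smul, det_fin_two]
    simp [h6, ap_inv_ap]
  by_cases h6 : x 6 = 0
  swap
  · exact ⟨1, one_mem _, by simpa using h6⟩
  by_cases h4 : x 4 = 0
  swap
  · exact ⟨e13 1, hH.r13 1, by simp [h6, h4]⟩
  by_cases h5 : x 5 = 0
  swap
  · exact ⟨e23 1, hH.r23 1, by simp [h6, h5]⟩
  have h07 : x 7 = -x 0 := by linear_combination ht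
  have h0 : x 0 = 0 := by
    simp only [nrm, h4, h5, h6, h07] at hn
    exact pow_eq_zero_iff two_ne_zero |>.1 (show x 0 ^ 2 = 0 by linear_combination -hn)
  rw [h0, neg_zero] at h07
  by_cases h3 : x 3 = 0
  swap
  · exact ⟨psi 0 0 1, hH.psi3 1, by simp [psiMap, h0, h07, h4, h5, h6, h3]⟩
  by_cases h1 : x 1 = 0
  swap
  · exact ⟨e13 1 * psi 1 0 0, mul_mem (hH.r13 1) (hH.psi1 1), by
      simp [ap_mul, psiMap, h0, h07, h4, h5, h6, h3, h1]⟩
  by_cases h2 : x 2 = 0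
  swap
  · exact ⟨e23 1 * psi 0 1 0, mul_mem (hH.r23 1) (hH.psi2 1), by
      simp [ap_mul, psiMap, h0, h07, h4, h5, h6, h3, h2]⟩
  exact absurd (funext fun i => by fin_cases i <;> simp [h0, h07, h4, h5, h6, h3, h1, h2]) hx

/-- An automorphism fixing the four generators is trivial. -/
theorem eq_one_of_fix {g : ↥(G2 F)} (h1 : ap g (bas 1) = bas 1) (h2 : ap g (bas 2) = bas 2)
    (h3 : ap g (bas 3) = bas 3) (h6 : ap g (bas 6) = bas 6) : g = 1 := by
  have prod : ∀ i j k : Fin 8, zornMul (bas i) (bas j) = (bas k : O8 F) → ap g (bas i) = bas i →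
      ap g (bas j) = bas j → ap g (bas k) = bas k := fun i j k e hi hj => by
    rw [← e, ap_zorn, hi, hj]
  have h4 := prod 2 3 4 (by funext i; fin_cases i <;> simp [zornMul, dot3, cross3]) h2 h3
  have h5 := prod 3 1 5 (by funext i; fin_cases i <;> simp [zornMul, dot3, cross3]) h3 h1
  have h0 := prod 1 4 0 (by funext i; fin_cases i <;> simp [zornMul, dot3, cross3]) h1 h4
  have h7 := prod 4 1 7 (by funext i; fin_cases i <;> simp [zornMul, dot3, cross3]) h4 h1
  refine Subtype.ext (Units.ext (ext_of_mulVec_single fun i => ?_))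
  show ap g (bas i) = ap (1 : ↥(G2 F)) (bas i)
  rw [ap_one]
  fin_cases i <;> assumption

/-- The element of the unipotent radical with the given coordinates. -/
def uHigh (a₁ a₂ s₁ s₂ t : F) : ↥(G2 F) := phi a₁ a₂ 0 * (e13 s₁ * (e23 s₂ * psi 0 0 t))

theorem HasRoots.uHigh_mem (hH : HasRoots H) (a₁ a₂ s₁ s₂ t : F) : uHigh a₁ a₂ s₁ s₂ t ∈ H :=
  mul_mem (hH.phi_mem _ _) (mul_mem (hH.r13 _) (mul_mem (hH.r23 _) (hH.psi3 _)))

theorem uHigh_bas6 (a₁ a₂ s₁ s₂ t : F) : ap (uHigh a₁ a₂ s₁ s₂ t) (bas 6) = bas 6 := by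
  funext i; fin_cases i <;> simp [uHigh, ap_mul, psiMap, phiMap]

theorem uHigh_bas1 (a₁ a₂ s₁ s₂ t : F) :
    ap (uHigh a₁ a₂ s₁ s₂ t) (bas 1) = bas 1 + (-a₂) • bas 6 := by
  funext i; fin_cases i <;> simp [uHigh, ap_mul, psiMap, phiMap]

theorem uHigh_bas2 (a₁ a₂ s₁ s₂ t : F) :
    ap (uHigh a₁ a₂ s₁ s₂ t) (bas 2) = bas 2 + a₁ • bas 6 := by
  funext i; fin_cases i <;> simp [uHigh, ap_mul, psiMap, phiMap]

/-- The vectors annihilated by the base vector. -/
theorem annihilator_form {w : O8 F} (ht : w 0 + w 7 = 0) (h : zornMul (bas 6) w = 0) :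
    w = ![0, w 1, w 2, 0, 0, 0, w 6, 0] := by
  have h1 := congrFun h 1; have h2 := congrFun h 2; have h6 := congrFun h 6; have h7 := congrFun h 7
  simp [zornMul, dot3, cross3] at h1 h2 h6 h7
  have : w 7 = 0 := by linear_combination ht - h6
  funext i
  fin_cases i <;> simp [h1, h2, h6, h7, this]

set_option maxHeartbeats 1000000 in
/-- The stabiliser of the base line. -/
theorem exists_stab_decomp {g : ↥(G2 F)} {D : F} (hg : ap g (bas 6) = D • bas 6) :
    ∃ (M : GL (Fin 2) F) (a₁ a₂ s₁ s₂ t : F), (M : Matrix (Fin 2) (Fin 2) F).det = D ∧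
      g = lev M * uHigh a₁ a₂ s₁ s₂ t := by
  have hD : D ≠ 0 := by
    rintro rfl
    rw [zero_smul, ← ap_zero g] at hg
    exact one_ne_zero (α := F) (by simpa using congrFun (ap_injective g hg) 6)
  have ann : ∀ i : Fin 8, zornMul (bas 6) (bas i) = (0 : O8 F) → i ≠ 0 → i ≠ 7 →
      ap g (bas i) = ![0, ap g (bas i) 1, ap g (bas i) 2, 0, 0, 0, ap g (bas i) 6, 0] := fun i e i0 i7 => by
    refine annihilator_form (by rw [ap_trace]; simp [Pi.single_apply, Ne.symm i0, Ne.symm i7]) ?_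
    have e' := congrArg (ap g) e
    rw [ap_zorn, hg, ap_zero] at e'
    funext j
    have ej := congrFun e' j
    fin_cases j <;> simp [zornMul, dot3, cross3, hD] at ej ⊢ <;> simp [ej]
  have w1 := ann 1 (by funext j; fin_cases j <;> simp [zornMul, dot3, cross3]) (by decide) (by decide)
  have w2 := ann 2 (by funext j; fin_cases j <;> simp [zornMul, dot3, cross3]) (by decide) (by decide)
  generalize ap g (bas 1) 1 = m00, ap g (bas 1) 2 = m10, ap g (bas 1) 6 = n1 at w1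
  generalize ap g (bas 2) 1 = m01, ap g (bas 2) 2 = m11, ap g (bas 2) 6 = n2 at w2
  have hdet : m00 * m11 - m01 * m10 = D := by
    have e := ap_zorn g (bas 1) (bas 2)
    rw [show zornMul (bas 1) (bas 2) = (bas 6 : O8 F) by
      funext j; fin_cases j <;> simp [zornMul, dot3, cross3], hg, w1, w2] at e
    have e6 := congrFun e 6
    simp [zornMul, dot3, cross3] at e6
    linear_combination -e6
  let M : GL (Fin 2) F := Matrix.GeneralLinearGroup.mkOfDetNeZero !![m00, m01; m10, m11]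
    (by simpa [det_fin_two] using hdet ▸ hD)
  have hMc : (M : Matrix (Fin 2) (Fin 2) F) = !![m00, m01; m10, m11] := rfl
  have hMd : (M : Matrix (Fin 2) (Fin 2) F).det = D := by rw [hMc, det_fin_two]; simpa using hdet
  set k := (lev M)⁻¹ * g with hk
  have k6 : ap k (bas 6) = bas 6 := by
    apply ap_injective (lev M)
    rw [hk, ap_mul, ap_ap_inv, hg, ap_lev, levMap_bas, hMd]
  have k1 : ap k (bas 1) = bas 1 + (n1 / D) • bas 6 := by
    apply ap_injective (lev M)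
    rw [hk, ap_mul, ap_ap_inv, w1, ap_lev, map_add, map_smul, levMap_bas, hMd, smul_smul,
      div_mul_cancel₀ _ hD, hMc]
    funext j; fin_cases j <;> simp [levMap]
  have k2 : ap k (bas 2) = bas 2 + (n2 / D) • bas 6 := by
    apply ap_injective (lev M)
    rw [hk, ap_mul, ap_ap_inv, w2, ap_lev, map_add, map_smul, levMap_bas, hMd, smul_smul,
      div_mul_cancel₀ _ hD, hMc]
    funext j; fin_cases j <;> simp [levMap]
  set l := (phi (n2 / D) (-(n1 / D)) 0)⁻¹ * k with hl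
  have l6 : ap l (bas 6) = bas 6 := by
    apply ap_injective (phi (n2 / D) (-(n1 / D)) 0)
    rw [hl, ap_mul, ap_ap_inv, k6]
    funext j; fin_cases j <;> simp [phiMap]
  have l1 : ap l (bas 1) = bas 1 := by
    apply ap_injective (phi (n2 / D) (-(n1 / D)) 0)
    rw [hl, ap_mul, ap_ap_inv, k1]
    funext j; fin_cases j <;> simp [phiMap]
  have l2 : ap l (bas 2) = bas 2 := by
    apply ap_injective (phi (n2 / D) (-(n1 / D)) 0)
    rw [hl, ap_mul, ap_ap_inv, k2]
    funext j; fin_cases j <;> simp [phiMap]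
  have p6 := ap_pol l (bas 6) (bas 3)
  have p1 := ap_pol l (bas 1) (bas 3)
  have p2 := ap_pol l (bas 2) (bas 3)
  have pt := ap_trace l (bas 3)
  have pn := ap_nrm l (bas 3)
  rw [l6] at p6; rw [l1] at p1; rw [l2] at p2
  generalize hf : ap l (bas 3) = f at p6 p1 p2 pt pn
  simp [pol] at p6 p1 p2
  simp at pt
  simp [nrm] at pn
  refine ⟨M, n2 / D, -(n1 / D), f 1, f 2, -f 0, hMd, ?_⟩
  have hone : (e13 (f 1) * (e23 (f 2) * psi 0 0 (-f 0)))⁻¹ * l = 1 := by
    refine eq_one_of_fix ?_ ?_ ?_ ?_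
    all_goals apply ap_injective (e13 (f 1) * (e23 (f 2) * psi 0 0 (-f 0)))
    all_goals rw [ap_mul _ l, ap_ap_inv]
    · rw [l1]; funext j; fin_cases j <;> simp [ap_mul, psiMap]
    · rw [l2]; funext j; fin_cases j <;> simp [ap_mul, psiMap]
    · rw [hf]; simp only [p6, p1, p2] at pn
      funext j; fin_cases j <;> simp [ap_mul, psiMap, p6, p1, p2]
      all_goals first
        | linear_combination pt
        | linear_combination -pt
        | linear_combination pn - f 0 * pt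
        | linear_combination -pn + f 0 * pt
    · rw [l6]; funext j; fin_cases j <;> simp [ap_mul, psiMap]
  rw [inv_mul_eq_one] at hone
  rw [uHigh, hone, hl, mul_inv_cancel_left, hk, mul_inv_cancel_left]

/-- The root elements generate. -/
theorem HasRoots.eq_top (hH : HasRoots H) : H = ⊤ := by
  refine Subgroup.eq_top_iff' H |>.2 fun g => ?_
  obtain ⟨k, hk, e⟩ := hH.exists_move (ap g (bas 6)) (by rw [ap_trace]; simp)
    (by rw [ap_nrm]; simp [nrm]) (by
      rw [← ap_zero g]; intro h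
      exact one_ne_zero (α := F) (by simpa using congrFun (ap_injective g h) 6))
  obtain ⟨M, a₁, a₂, s₁, s₂, t, -, hdec⟩ := exists_stab_decomp (g := k⁻¹ * g) (D := 1)
    (by rw [one_smul, ap_mul, ← e, ap_inv_ap])
  rw [inv_mul_eq_iff_eq_mul] at hdec
  rw [hdec]
  exact mul_mem hk (mul_mem (hH.lev_mem M) (hH.uHigh_mem _ _ _ _ _))

end Cfsg.Agent.H19.GTwo
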